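import Mathlib

/-!
A finite perfect group acting irreducibly whose orbits are orbits of a `p`-subgroup `P`:
`P` has no imprimitivity decomposition into `p` blocks, hence no normal subgroup of type
`(p, p)`.
-/

set_option autoImplicit false

namespace CfsgLib.PPowerOrbits

open scoped BigOperators

variable {K V : Type*} [Group K] [AddCommGroup V] [DistribMulAction K V]

/-- a homomorphism from a perfect group into a commutative monoid is trivial -/
theorem hom_eq_one_of_perfect {M : Type*} [CommMonoid M] (hperf : commutator K = ⊤) (f : K →* M)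
    (k : K) : f k = 1 := by
  have h := Abelianization.commutator_subset_ker f.toHomUnits
    (show k ∈ commutator K by rw [hperf]; trivial)
  rw [MonoidHom.mem_ker] at h
  exact congrArg Units.val h

/-- The hypotheses shared by the arguments of this folder. -/
structure Irred (p : ℕ) (P : Subgroup K) (V : Type*) [AddCommGroup V] [DistribMulAction K V] :
    Prop where
  perfect : commutator K = ⊤
  orbit : ∀ (k : K) (v : V), ∃ π ∈ P, π • v = k • v
  irreducible : ∀ W : AddSubgroup V, (∀ π ∈ P, ∀ w ∈ W, π • w ∈ W) → W = ⊥ ∨ W = ⊤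

/-- **No blocks**: `V` is not the direct sum of `p` subgroups which `P` shifts cyclically. -/
theorem Irred.no_blocks {p : ℕ} [hp : Fact p.Prime] {P : Subgroup K} (h : Irred p P V)
    (W : ZMod p → AddSubgroup V) (hne : ∀ i, ∃ a ∈ W i, a ≠ 0)
    (hind : ∀ f : ZMod p → V, (∀ i, f i ∈ W i) → ∑ i, f i = 0 → ∀ i, f i = 0)
    (hperm : ∀ π ∈ P, ∃ c : ZMod p, ∀ i, ∀ v ∈ W i, π • v ∈ W (i + c)) : False := by
  classical
  choose a haW ha0 using hne
  have hind2 : ∀ {i j : ZMod p} {u v : V}, i ≠ j → u ∈ W i → v ∈ W j → u + v = 0 → u = 0 := by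
    intro i j u v hij hu hv huv
    have h1 := hind (fun l => (if l = i then u else 0) + (if l = j then v else 0)) (fun l => ?_) ?_ i
    · simpa [hij] using h1
    · refine (W l).add_mem ?_ ?_
      · split_ifs with hl
        · exact hl ▸ hu
        · exact (W l).zero_mem
      · split_ifs with hl
        · exact hl ▸ hv
        · exact (W l).zero_mem
    · rw [Finset.sum_add_distrib]
      simpa using huv
  have hind3 : ∀ {i j l : ZMod p} {u v w : V}, i ≠ j → i ≠ l → u ∈ W i → v ∈ W j → w ∈ W l →
      u + v + w = 0 → u = 0 := by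
    intro i j l u v w hij hil hu hv hw huvw
    have h1 := hind (fun m => (if m = i then u else 0) + (if m = j then v else 0)
      + (if m = l then w else 0)) (fun m => ?_) ?_ i
    · simpa [hij, hil] using h1
    · refine (W m).add_mem ((W m).add_mem ?_ ?_) ?_
      · split_ifs with hm
        · exact hm ▸ hu
        · exact (W m).zero_mem
      · split_ifs with hm
        · exact hm ▸ hv
        · exact (W m).zero_mem
      · split_ifs with hm
        · exact hm ▸ hw
        · exact (W m).zero_mem
    · rw [Finset.sum_add_distrib, Finset.sum_add_distrib]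
      simpa using huvw
  have heq : ∀ {i j : ZMod p} {u : V}, u ≠ 0 → u ∈ W i → u ∈ W j → i = j := by
    intro i j u hu hi hj
    by_contra hij
    exact hu (hind2 hij hi ((W j).neg_mem hj) (add_neg_cancel u))
  -- every element of `K` maps each block into a block
  have hmem : ∀ (k : K) (i : ZMod p), ∀ u ∈ W i, ∃ j, k • u ∈ W j := by
    intro k i u hu
    obtain ⟨π, hπ, e⟩ := h.orbit k u
    obtain ⟨c, hc⟩ := hperm π hπ
    exact ⟨i + c, e ▸ hc i u hu⟩
  have hsig : ∀ (k : K) (i : ZMod p), ∃ j, ∀ u ∈ W i, k • u ∈ W j := by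
    intro k i
    obtain ⟨j, hj⟩ := hmem k i (a i) (haW i)
    refine ⟨j, fun u hu => ?_⟩
    obtain ⟨l, hl⟩ := hmem k i u hu
    by_contra hcon
    have hlj : l ≠ j := fun e => hcon (e ▸ hl)
    obtain ⟨m, hm⟩ := hmem k i _ ((W i).add_mem (haW i) hu)
    rw [smul_add] at hm
    rcases eq_or_ne m j with rfl | hmj
    · exact hcon (by simpa using (W m).sub_mem hm hj)
    · have : k • a i = 0 := by
        refine hind3 (Ne.symm hlj) (Ne.symm hmj) hj hl ((W m).neg_mem hm) ?_
        abel
      exact ha0 i ((smul_eq_zero_iff_eq k).mp this)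
  choose σ hσ using hsig
  have hσne : ∀ (k : K) (i : ZMod p), k • a i ≠ 0 := fun k i h0 =>
    ha0 i ((smul_eq_zero_iff_eq k).mp h0)
  have hσu : ∀ (k : K) (i j : ZMod p), k • a i ∈ W j → σ k i = j :=
    fun k i j hj => heq (hσne k i) (hσ k i _ (haW i)) hj
  have hσ1 : ∀ i, σ 1 i = i := fun i => hσu 1 i i (by rw [one_smul]; exact haW i)
  have hσm : ∀ k l i, σ (k * l) i = σ k (σ l i) := fun k l i =>
    hσu _ _ _ (by rw [mul_smul]; exact hσ k _ _ (hσ l i _ (haW i)))
  have hinj : ∀ k i i', σ k i = σ k i' → i = i' := by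
    intro k i i' e
    have h1 := congrArg (σ k⁻¹) e
    rwa [← hσm, ← hσm, inv_mul_cancel, hσ1, hσ1] at h1
  have hp1 : (1 : ZMod p) ≠ 0 := one_ne_zero
  -- adjacent blocks go to adjacent blocks
  have hadj : ∀ k i, σ k (i + 1) - σ k i = 1 ∨ σ k (i + 1) - σ k i = -1 := by
    intro k i
    have hii : i ≠ i + 1 := fun e => hp1 (left_eq_add.mp e)
    obtain ⟨π, hπ, e⟩ := h.orbit k (a i + a (i + 1))
    obtain ⟨c, hc⟩ := hperm π hπ
    have h1 := hc i _ (haW i)
    have h2 := hc (i + 1) _ (haW (i + 1))
    rw [smul_add, smul_add] at e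
    have h3 := hσ k i _ (haW i)
    have h4 := hσ k (i + 1) _ (haW (i + 1))
    have hne34 : σ k i ≠ σ k (i + 1) := fun e' => hii (hinj k _ _ e')
    have e3 : σ k i = i + c ∨ σ k i = i + 1 + c := by
      by_contra hcon
      push Not at hcon
      have := hind (fun m => (if m = σ k i then k • a i else 0) + (if m = σ k (i + 1) then k • a (i + 1) else 0)
        - ((if m = i + c then π • a i else 0) + (if m = i + 1 + c then π • a (i + 1) else 0)))
        (fun m => ?_) ?_ (σ k i)
      · simp only [if_pos rfl, if_neg hne34, if_neg hcon.1, if_neg hcon.2, add_zero, sub_zero] at this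
        exact hσne k i this
      · refine (W m).sub_mem ((W m).add_mem ?_ ?_) ((W m).add_mem ?_ ?_)
        all_goals split_ifs with hm
        all_goals first | exact (W m).zero_mem | (subst hm; assumption)
      · rw [Finset.sum_sub_distrib, Finset.sum_add_distrib, Finset.sum_add_distrib]
        simp [e]
    have e4 : σ k (i + 1) = i + c ∨ σ k (i + 1) = i + 1 + c := by
      by_contra hcon
      push Not at hcon
      have := hind (fun m => (if m = σ k i then k • a i else 0) + (if m = σ k (i + 1) then k • a (i + 1) else 0)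
        - ((if m = i + c then π • a i else 0) + (if m = i + 1 + c then π • a (i + 1) else 0)))
        (fun m => ?_) ?_ (σ k (i + 1))
      · simp only [if_pos rfl, if_neg hne34.symm, if_neg hcon.1, if_neg hcon.2, add_zero, zero_add,
          sub_zero] at this
        exact hσne k (i + 1) this
      · refine (W m).sub_mem ((W m).add_mem ?_ ?_) ((W m).add_mem ?_ ?_)
        all_goals split_ifs with hm
        all_goals first | exact (W m).zero_mem | (subst hm; assumption)
      · rw [Finset.sum_sub_distrib, Finset.sum_add_distrib, Finset.sum_add_distrib]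
        simp [e]
    rcases e3 with e3 | e3 <;> rcases e4 with e4 | e4
    · exact absurd (e3.trans e4.symm) hne34
    · left; rw [e3, e4]; ring
    · right; rw [e3, e4]; ring
    · exact absurd (e3.trans e4.symm) hne34
  set d : K → ZMod p := fun k => σ k 1 - σ k 0 with hd
  have hconst : ∀ k i, σ k (i + 1) - σ k i = d k := by
    intro k
    have hstep : ∀ i, σ k (i + 1 + 1) - σ k (i + 1) = σ k (i + 1) - σ k i := by
      intro i
      by_contra hne
      have hopp : σ k (i + 1 + 1) - σ k (i + 1) = -(σ k (i + 1) - σ k i) := by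
        rcases hadj k i with h1 | h1 <;> rcases hadj k (i + 1) with h2 | h2 <;>
          first
            | exact absurd (h2.trans h1.symm) hne
            | (rw [h1, h2]; done)
            | (rw [h1, h2, neg_neg])
      have h2 : σ k (i + 1 + 1) = σ k i := by linear_combination hopp
      have h0 : (1 : ZMod p) + 1 = 0 := by linear_combination hinj k _ _ h2
      refine hne ?_
      linear_combination hopp - (σ k (i + 1) - σ k i) * h0
    have hn : ∀ m : ℕ, σ k ((m : ZMod p) + 1) - σ k (m : ZMod p) = d k := by
      intro m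
      induction m with
      | zero => simp [hd]
      | succ m ih => rw [Nat.cast_succ, hstep, ih]
    intro i
    simpa [ZMod.natCast_zmod_val] using hn i.val
  have haff : ∀ k i, σ k i = σ k 0 + d k * i := by
    intro k
    have hn : ∀ m : ℕ, σ k (m : ZMod p) = σ k 0 + d k * m := by
      intro m
      induction m with
      | zero => simp
      | succ m ih =>
        rw [Nat.cast_succ]
        linear_combination hconst k (m : ZMod p) + ih
    intro i
    simpa [ZMod.natCast_zmod_val] using hn i.val
  let f : K →* ZMod p :=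
    { toFun := d
      map_one' := by simp [hd, hσ1]
      map_mul' := fun k l => by
        simp only [hd, hσm]
        rw [haff k (σ l 1), haff k (σ l 0)]
        simp only [hd]
        ring }
  have hd1 : ∀ k, d k = 1 := fun k => hom_eq_one_of_perfect h.perfect f k
  let t : K →* Multiplicative (ZMod p) :=
    { toFun := fun k => Multiplicative.ofAdd (σ k 0)
      map_one' := by simp [hσ1]
      map_mul' := fun k l => by
        rw [← ofAdd_add, hσm, haff k (σ l 0), hd1, one_mul] }
  have htriv : ∀ k i, σ k i = i := fun k i => by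
    have h0 : σ k 0 = 0 := Multiplicative.ofAdd.injective (by
      rw [ofAdd_zero]; exact hom_eq_one_of_perfect h.perfect t k)
    rw [haff, hd1, h0, zero_add, one_mul]
  rcases h.irreducible (W 0) (fun π _ w hw => htriv π 0 ▸ hσ π 0 w hw) with hb | hb
  · exact ha0 0 (by simpa [hb] using haW 0)
  · exact hp1 (heq (ha0 1) (haW 1) (by rw [hb]; trivial))

/-- **No normal subgroup of type `(p, p)`**: there are no commuting `z`, `e` of order `p` in
`P`, with `z` central in `P` and every `P`-conjugate of `e` in `e⟨z⟩`, generating a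
non-cyclic group. -/
theorem Irred.no_rank_two [FaithfulSMul K V] {p q : ℕ} [hp : Fact p.Prime] [hq : Fact q.Prime]
    (hqp : q ≠ p) (hexp : ∀ v : V, q • v = 0) [Nontrivial V] {P : Subgroup K}
    (h : Irred p P V) {z e : K} (hz : orderOf z = p) (he : e ^ p = 1)
    (hzP : z ∈ P) (hzc : ∀ π ∈ P, π * z = z * π) (hze : Commute z e)
    (heP : ∀ π ∈ P, ∃ c : ℕ, π * e * π⁻¹ = e * z ^ c) (hne : e ∉ Subgroup.zpowers z) : False := by
  classical
  haveI : NeZero p := ⟨hp.out.ne_zero⟩
  -- `p` is invertible on `V`
  obtain ⟨m, hm⟩ : ∃ m : ℕ, ∀ v : V, m • p • v = v := by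
    have hc : (p : ZMod q) ≠ 0 := by
      rw [Ne, ZMod.natCast_eq_zero_iff]
      exact fun hd => hqp ((Nat.prime_dvd_prime_iff_eq hq.out hp.out).mp hd)
    refine ⟨((p : ZMod q)⁻¹).val, fun v => ?_⟩
    have h1 : (((p : ZMod q)⁻¹).val * p) % q = 1 := by
      have : ((((p : ZMod q)⁻¹).val * p : ℕ) : ZMod q) = ((1 : ℕ) : ZMod q) := by
        rw [Nat.cast_mul, ZMod.natCast_zmod_val, Nat.cast_one, inv_mul_cancel₀ hc]
      rw [ZMod.natCast_eq_natCast_iff'] at this
      rwa [Nat.one_mod_eq_one.mpr hq.out.ne_one] at this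
    rw [← mul_nsmul', ← Nat.mod_add_div (((p : ZMod q)⁻¹).val * p) q, h1, add_nsmul, one_nsmul,
      mul_nsmul, hexp, nsmul_zero, add_zero]
  -- `z` has no non-zero fixed vector
  have hzfix : ∀ v : V, z • v = v → v = 0 := by
    intro v hv
    let U : AddSubgroup V :=
      { carrier := {w | z • w = w}
        zero_mem' := smul_zero _
        add_mem' := fun {x y} hx hy => by
          simp only [Set.mem_ofPred_eq] at hx hy ⊢
          rw [smul_add, hx, hy]
        neg_mem' := fun {x} hx => by
          simp only [Set.mem_ofPred_eq] at hx ⊢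
          rw [smul_neg, hx] }
    rcases h.irreducible U (fun π hπ w hw => by
        show z • (π • w) = π • w
        rw [smul_smul, ← hzc π hπ, ← smul_smul, show z • w = w from hw]) with hU | hU
    · simpa [hU] using (show v ∈ U from hv)
    · exfalso
      have : z = 1 := FaithfulSMul.eq_of_smul_eq_smul (fun w : V => by
        rw [one_smul]; exact (show w ∈ U by rw [hU]; trivial))
      rw [this, orderOf_one] at hz
      exact hp.out.ne_one hz.symm
  have hzp : ∀ n : ℕ, z ^ (n % p) = z ^ n := fun n => by
    conv_rhs => rw [← pow_mod_orderOf, hz]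
  set Z : ZMod p → K := fun i => z ^ i.val with hZ
  have hZn : ∀ c : ℕ, Z (c : ZMod p) = z ^ c := fun c => by
    simp only [hZ, ZMod.val_natCast]
    exact hzp c
  have hZadd : ∀ i j, Z (i + j) = Z i * Z j := fun i j => by
    simp only [hZ, ZMod.val_add]
    rw [← pow_add, hzp]
  have hZsum : ∀ v : V, ∑ j : ZMod p, Z j • v = 0 := by
    intro v
    refine hzfix _ ?_
    rw [Finset.smul_sum]
    refine Fintype.sum_equiv (Equiv.addLeft 1) _ _ fun j => ?_
    rw [Equiv.coe_addLeft, smul_smul, hZadd, show Z 1 = z by
      rw [← Nat.cast_one, hZn, pow_one]]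
  set u : ZMod p → K := fun i => e * Z i with hu
  have hup : ∀ i, u i ^ p = 1 := fun i => by
    show (e * z ^ i.val) ^ p = 1
    rw [((hze.pow_left i.val).symm).mul_pow, he, one_mul]
    rw [← pow_mul, ← hzp, Nat.mul_mod_left, pow_zero]
  let W : ZMod p → AddSubgroup V := fun i =>
    { carrier := {w | u i • w = w}
      zero_mem' := smul_zero _
      add_mem' := fun {x y} hx hy => by
        simp only [Set.mem_ofPred_eq] at hx hy ⊢
        rw [smul_add, hx, hy]
      neg_mem' := fun {x} hx => by
        simp only [Set.mem_ofPred_eq] at hx ⊢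
        rw [smul_neg, hx] }
  set T : ZMod p → V → V := fun i v => ∑ t : ZMod p, (u i) ^ t.val • v with hT
  have hTW : ∀ i v, T i v ∈ W i := by
    intro i v
    show u i • T i v = T i v
    simp only [hT]
    rw [Finset.smul_sum]
    refine Fintype.sum_equiv (Equiv.addLeft 1) _ _ fun t => ?_
    rw [Equiv.coe_addLeft, smul_smul, ← pow_succ']
    congr 1
    rw [← pow_mod_orderOf, ← pow_mod_orderOf (u i) (1 + t).val]
    congr 1
    have hd : orderOf (u i) ∣ p := orderOf_dvd_of_pow_eq_one (hup i)
    rw [← Nat.mod_mod_of_dvd (t.val + 1) hd, ← Nat.mod_mod_of_dvd ((1 + t).val) hd,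
      Nat.mod_eq_of_lt (ZMod.val_lt (1 + t))]
    congr 1
    rw [ZMod.val_add, ZMod.val_one, add_comm]
  have hTsum : ∀ v, ∑ i, T i v = p • v := by
    intro v
    simp only [hT]
    rw [Finset.sum_comm, Finset.sum_eq_single (0 : ZMod p)]
    · simp [ZMod.card]
    · intro t _ ht
      have h1 : ∀ i : ZMod p, (u i) ^ t.val • v = e ^ t.val • Z (t * i) • v := by
        intro i
        rw [smul_smul]
        congr 1
        simp only [hu]
        rw [((hze.pow_left i.val).symm).mul_pow]
        congr 1
        simp only [hZ]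
        rw [← pow_mul, ← hzp, ← ZMod.val_mul, mul_comm i t]
      simp only [h1]
      rw [← Finset.smul_sum]
      have h2 : ∑ i : ZMod p, Z (t * i) • v = 0 := by
        rw [← hZsum v]
        exact Fintype.sum_equiv (Equiv.mulLeft₀ t ht) _ _ fun i => rfl
      rw [h2, smul_zero]
    · intro h0; exact absurd (Finset.mem_univ _) h0
  have hTW' : ∀ i j v, v ∈ W j → T i v = if i = j then p • v else 0 := by
    intro i j v hv
    have hv' : u j • v = v := hv
    split_ifs with hij
    · subst hij
      simp only [hT]
      rw [Finset.sum_congr rfl (g := fun _ => v)]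
      · simp [ZMod.card]
      · intro t _
        induction t.val with
        | zero => simp
        | succ n ih => rw [pow_succ', mul_smul, ih, hv']
    · have h1 : ∀ n : ℕ, (u i) ^ n • v = Z ((i - j) * n) • v := by
        intro n
        induction n with
        | zero => simp [hZ]
        | succ n ih =>
          have e1 : u i = Z (i - j) * u j := by
            simp only [hu]
            rw [← mul_assoc, show Z (i - j) * e = e * Z (i - j) from (hze.pow_left _).eq, mul_assoc,
              ← hZadd, sub_add_cancel]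
          have e2 : ∀ s : ZMod p, u j • Z s • v = Z s • v := by
            intro s
            have hc : Commute (u j) (Z s) := by
              simp only [hu, hZ]
              exact ((hze.pow_left _).symm).mul_left (Commute.pow_pow_self z _ _)
            rw [smul_smul, hc.eq, ← smul_smul, hv']
          rw [pow_succ', mul_smul, ih, e1, mul_smul, e2, smul_smul, ← hZadd]
          congr 2
          push_cast
          ring
      simp only [hT, h1, ZMod.natCast_zmod_val]
      rw [← hZsum v]
      exact Fintype.sum_equiv (Equiv.mulLeft₀ (i - j) (sub_ne_zero.mpr hij)) _ _ fun t => rfl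
  have hind : ∀ f : ZMod p → V, (∀ i, f i ∈ W i) → ∑ i, f i = 0 → ∀ i, f i = 0 := by
    intro f hf hs i
    have h1 : T i (∑ j, f j) = ∑ j, T i (f j) := by
      simp only [hT, Finset.smul_sum]
      exact Finset.sum_comm
    rw [hs] at h1
    rw [Finset.sum_congr rfl (fun j _ => hTW' i j (f j) (hf j)), Finset.sum_ite_eq] at h1
    have h2 : T i 0 = 0 := by simp [hT]
    rw [h2, if_pos (Finset.mem_univ _)] at h1
    rw [← hm (f i), ← h1, nsmul_zero]
  have hperm : ∀ π ∈ P, ∀ c : ℕ, π * e * π⁻¹ = e * z ^ c → ∀ i, ∀ v ∈ W i,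
      π • v ∈ W (i + c) := by
    intro π hπ c hc i v hv
    show u (i + c) • π • v = π • v
    rw [smul_smul]
    have : u (i + c) * π = π * u i := by
      simp only [hu]
      rw [hZadd, hZn, show Z i * z ^ c = z ^ c * Z i from Commute.pow_pow_self z _ _, ← mul_assoc, ← hc]
      simp only [hZ]
      rw [mul_assoc, mul_assoc, ← ((show Commute π z from hzc π hπ).pow_right i.val).eq]
      group
    rw [this, mul_smul, show u i • v = v from hv]
  -- some block is non-zero
  obtain ⟨v, hv⟩ := exists_ne (0 : V)
  obtain ⟨i₀, hi₀⟩ : ∃ i, ∃ w ∈ W i, w ≠ 0 := by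
    by_contra hcon
    push Not at hcon
    apply hv
    rw [← hm v, ← hTsum v, Finset.sum_eq_zero (fun i _ => hcon i _ (hTW i v)), nsmul_zero]
  obtain ⟨π₀, hπ₀, c₀, hc₀, hc0⟩ : ∃ π ∈ P, ∃ c : ℕ, π * e * π⁻¹ = e * z ^ c ∧ (c : ZMod p) ≠ 0 := by
    by_contra hcon
    push Not at hcon
    rcases h.irreducible (W i₀) (fun π hπ w hw => by
        obtain ⟨c, hc⟩ := heP π hπ
        have := hperm π hπ c hc i₀ w hw
        rwa [hcon π hπ c hc, add_zero] at this) with hb | hb
    · obtain ⟨w, hw, hw0⟩ := hi₀
      exact hw0 (by simpa [hb] using hw)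
    · apply hne
      have h1 : u i₀ = 1 := FaithfulSMul.eq_of_smul_eq_smul (fun w : V => by
        rw [one_smul]; exact (show w ∈ W i₀ by rw [hb]; trivial))
      simp only [hu] at h1
      rw [eq_inv_of_mul_eq_one_left h1]
      exact Subgroup.inv_mem _ (Subgroup.npow_mem_zpowers z _)
  have hall : ∀ i, ∃ a ∈ W i, a ≠ 0 := by
    have hn : ∀ n : ℕ, ∃ a ∈ W (i₀ + n * c₀), a ≠ 0 := by
      intro n
      induction n with
      | zero => simpa using hi₀
      | succ n ih =>
        obtain ⟨a, ha, ha0⟩ := ih
        refine ⟨π₀ • a, ?_, fun h0 => ha0 ((smul_eq_zero_iff_eq π₀).mp h0)⟩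
        have := hperm π₀ hπ₀ c₀ hc₀ _ a ha
        convert this using 2
        push_cast
        ring
    intro i
    obtain ⟨a, ha, ha0⟩ := hn ((i - i₀) * (c₀ : ZMod p)⁻¹).val
    refine ⟨a, ?_, ha0⟩
    convert ha using 2
    rw [ZMod.natCast_zmod_val]
    field_simp
    ring
  refine h.no_blocks W hall hind fun π hπ => ?_
  obtain ⟨c, hc⟩ := heP π hπ
  exact ⟨c, hperm π hπ c hc⟩

end CfsgLib.PPowerOrbits
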