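import Mathlib

/-!
An element acting irreducibly on a finite elementary abelian group makes it a finite field.
-/

set_option autoImplicit false

namespace CfsgLib.PPowerOrbits

universe u v

variable {K : Type u} {V : Type v} [Group K] [AddCommGroup V] [DistribMulAction K V]

/-- A field model of a module on which `g` acts irreducibly: `g` becomes multiplication by a
generator `γ`. -/
structure Model (q : ℕ) (g : K) (F : Type v) (V : Type v) [Field F] [Algebra (ZMod q) F] [AddCommGroup V]
    [DistribMulAction K V] where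
  γ : F
  e : F ≃+ V
  smul : ∀ x : F, g • e x = e (γ * x)
  gen : ∀ S : Subalgebra (ZMod q) F, γ ∈ S → S = ⊤

theorem exists_model {q : ℕ} [Fact q.Prime] (hexp : ∀ v : V, q • v = 0) [Finite V] [Nontrivial V]
    (g : K) (hirr : ∀ W : AddSubgroup V, (∀ w ∈ W, g • w ∈ W) → W = ⊥ ∨ W = ⊤) :
    ∃ (F : Type v) (_ : Field F) (_ : Fintype F) (_ : Algebra (ZMod q) F),
      Nonempty (Model q g F V) := by
  classical
  have inst : Module (ZMod q) V := AddCommGroup.zmodModule hexp
  let T : V →ₗ[ZMod q] V :=
    AddMonoidHom.toZModLinearMap q (DistribMulAction.toAddMonoidHom V g)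
  have hT : ∀ w : V, T w = g • w := fun w => rfl
  let A := Algebra.adjoin (ZMod q) ({T} : Set (Module.End (ZMod q) V))
  have hTA : T ∈ A := Algebra.subset_adjoin rfl
  have hcomm : ∀ x y : A, x * y = y * x := by
    rintro ⟨x, hx⟩ ⟨y, hy⟩
    apply Subtype.ext
    change x ∈ Algebra.adjoin (ZMod q) ({T} : Set (Module.End (ZMod q) V)) at hx
    change y ∈ Algebra.adjoin (ZMod q) ({T} : Set (Module.End (ZMod q) V)) at hy
    rw [Algebra.adjoin_singleton_eq_range_aeval] at hx hy
    obtain ⟨P, rfl⟩ := hx
    obtain ⟨Q, rfl⟩ := hy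
    show Polynomial.aeval T P * Polynomial.aeval T Q = Polynomial.aeval T Q * Polynomial.aeval T P
    rw [← map_mul, ← map_mul, mul_comm]
  have hTc : ∀ x : A, ∀ v : V, (x : Module.End (ZMod q) V) (g • v) = g • (x : Module.End (ZMod q) V) v := by
    intro x v
    have := congrArg Subtype.val (hcomm x ⟨T, hTA⟩)
    have h2 := LinearMap.congr_fun this v
    simpa [Subalgebra.coe_mul, Module.End.mul_apply, hT] using h2
  have hinj : ∀ x : A, x ≠ 0 → ∀ v : V, (x : Module.End (ZMod q) V) v = 0 → v = 0 := by
    intro x hx v hv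
    let U : AddSubgroup V := (LinearMap.ker (x : Module.End (ZMod q) V)).toAddSubgroup
    rcases hirr U (fun w hw => by
        show (x : Module.End (ZMod q) V) (g • w) = 0
        rw [hTc, show (x : Module.End (ZMod q) V) w = 0 from hw, smul_zero]) with hU | hU
    · exact (AddSubgroup.mem_bot.mp (hU ▸ (show v ∈ U from hv)))
    · exfalso
      apply hx
      apply Subtype.ext
      apply LinearMap.ext
      intro w
      exact (show w ∈ U by rw [hU]; trivial)
  letI cr : CommRing A := { (inferInstance : Ring A) with mul_comm := hcomm }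
  obtain ⟨v₀, hv₀⟩ := exists_ne (0 : V)
  haveI : IsDomain A := by
    haveI : NoZeroDivisors A := ⟨fun {x y} hxy => by
      by_contra hcon
      push Not at hcon
      have h1 : (x : Module.End (ZMod q) V) ((y : Module.End (ZMod q) V) v₀) = 0 := by
        have := LinearMap.congr_fun (congrArg Subtype.val hxy) v₀
        simpa using this
      exact hv₀ (hinj y hcon.2 _ (hinj x hcon.1 _ h1))⟩
    haveI : Nontrivial A := ⟨⟨1, 0, fun h => hv₀ (by
      simpa using LinearMap.congr_fun (congrArg Subtype.val h) v₀)⟩⟩
    exact NoZeroDivisors.to_isDomain A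
  haveI : Finite (Module.End (ZMod q) V) := Finite.of_injective _ DFunLike.coe_injective
  haveI : Finite A := Finite.of_injective _ Subtype.val_injective
  letI fld : Field A := (Finite.isField_of_domain A).toField
  letI : Fintype A := Fintype.ofFinite A
  refine ⟨A, fld, inferInstance, inferInstance, ⟨?_⟩⟩
  let ev : A →+ V :=
    { toFun := fun x => (x : Module.End (ZMod q) V) v₀
      map_zero' := rfl
      map_add' := fun x y => rfl }
  have hev : Function.Bijective ev := by
    refine ⟨(injective_iff_map_eq_zero ev).mpr fun x hx => ?_, fun v => ?_⟩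
    · by_contra hne
      exact hv₀ (hinj x hne _ hx)
    · rcases hirr ev.range (by
          rintro w ⟨x, rfl⟩
          exact ⟨⟨T, hTA⟩ * x, rfl⟩) with h | h
      · exfalso
        apply hv₀
        exact AddSubgroup.mem_bot.mp (h ▸ (⟨1, rfl⟩ : v₀ ∈ ev.range))
      · exact (show v ∈ ev.range by rw [h]; trivial)
  refine
    { γ := ⟨T, hTA⟩
      e := AddEquiv.ofBijective ev hev
      smul := fun x => rfl
      gen := fun S hS => ?_ }
  rw [eq_top_iff]
  rintro ⟨x, hx⟩ -
  revert hS
  intro hS
  have key : ∀ y (hy : y ∈ A), (⟨y, hy⟩ : A) ∈ S := by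
    intro y hy
    induction hy using Algebra.adjoin_induction with
    | mem z hz =>
      obtain rfl : z = T := hz
      exact hS
    | algebraMap r => exact S.algebraMap_mem r
    | add a b _ _ iha ihb => exact S.add_mem iha ihb
    | mul a b _ _ iha ihb => exact S.mul_mem iha ihb
  exact key x hx

namespace Model

variable {q : ℕ} [Fact q.Prime] {g : K} {F : Type v} [Field F] [Algebra (ZMod q) F]
  (M : Model q g F V)

include M

theorem pow_smul (m : ℕ) (x : F) : g ^ m • M.e x = M.e (M.γ ^ m * x) := by
  induction m generalizing x with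
  | zero => simp
  | succ m ih => rw [pow_succ, mul_smul, M.smul, ih, ← mul_assoc, ← pow_succ]

theorem pow_eq_one_iff [FaithfulSMul K V] (m : ℕ) : g ^ m = 1 ↔ M.γ ^ m = 1 := by
  constructor
  · intro h
    have := M.pow_smul m 1
    rw [h, one_smul, mul_one] at this
    exact (M.e.injective this).symm
  · intro h
    refine FaithfulSMul.eq_of_smul_eq_smul (fun w : V => ?_)
    rw [one_smul, ← M.e.apply_symm_apply w, M.pow_smul, h, one_mul]

end Model

section Frobenius

variable {F : Type v} [Field F] {q : ℕ} [Fact q.Prime] [Algebra (ZMod q) F]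

/-- The fixed points of a power of the Frobenius. -/
def fixedFrob (d : ℕ) : Subalgebra (ZMod q) F where
  carrier := {x | x ^ q ^ d = x}
  mul_mem' := fun {x y} hx hy => by
    simp only [Set.mem_ofPred_eq] at hx hy ⊢
    rw [mul_pow, hx, hy]
  one_mem' := one_pow _
  add_mem' := fun {x y} hx hy => by
    haveI : CharP F q := charP_of_injective_algebraMap' (ZMod q) q
    simp only [Set.mem_ofPred_eq] at hx hy ⊢
    rw [add_pow_char_pow, hx, hy]
  zero_mem' := zero_pow (pow_ne_zero _ (Fact.out : q.Prime).ne_zero)
  algebraMap_mem' := fun r => by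
    simp only [Set.mem_ofPred_eq]
    rw [← map_pow, ZMod.pow_card_pow]

theorem mem_fixedFrob {d : ℕ} {x : F} : x ∈ fixedFrob (q := q) d ↔ x ^ q ^ d = x := Iff.rfl

theorem card_fixedFrob_le [Finite F] {d : ℕ} (hd : d ≠ 0) :
    Nat.card (fixedFrob (q := q) (F := F) d) ≤ q ^ d := by
  classical
  haveI : Fintype F := Fintype.ofFinite F
  have h1 : (Polynomial.X ^ q ^ d - Polynomial.X : Polynomial F) ≠ 0 :=
    FiniteField.X_pow_card_pow_sub_X_ne_zero F hd (Fact.out : q.Prime).one_lt
  have h2 : (Polynomial.X ^ q ^ d - Polynomial.X : Polynomial F).natDegree = q ^ d :=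
    FiniteField.X_pow_card_pow_sub_X_natDegree_eq F hd (Fact.out : q.Prime).one_lt
  calc Nat.card (fixedFrob (q := q) (F := F) d)
      ≤ Nat.card {x : F // x ∈ (Polynomial.X ^ q ^ d - Polynomial.X : Polynomial F).roots.toFinset} := by
        refine Nat.card_le_card_of_injective (fun x => ⟨x.1, ?_⟩)
          (fun x y h => by simpa using congrArg Subtype.val h |> Subtype.ext)
        rw [Multiset.mem_toFinset, Polynomial.mem_roots h1]
        simp only [Polynomial.IsRoot, Polynomial.eval_sub, Polynomial.eval_pow, Polynomial.eval_X]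
        exact sub_eq_zero.mpr x.2
    _ = (Polynomial.X ^ q ^ d - Polynomial.X : Polynomial F).roots.toFinset.card := by
        rw [Nat.card_eq_fintype_card, Fintype.card_coe]
    _ ≤ _ := (Multiset.toFinset_card_le _).trans
        ((Polynomial.card_roots' _).trans_eq h2)

variable {K : Type u} {V : Type v} [Group K] [AddCommGroup V] [DistribMulAction K V] {g : K}

/-- If `γ` is fixed by the `d`-th power of the Frobenius, then `|V| ≤ q ^ d`. -/
theorem Model.card_le (M : Model q g F V) [Finite F] {d : ℕ} (hd : d ≠ 0) (h : M.γ ^ q ^ d = M.γ) :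
    Nat.card V ≤ q ^ d := by
  have htop := M.gen _ (mem_fixedFrob.mpr h)
  rw [← Nat.card_congr M.e.toEquiv]
  refine le_of_eq_of_le ?_ (card_fixedFrob_le (q := q) (F := F) hd)
  rw [htop]
  exact Nat.card_congr ((Equiv.Set.univ F).symm)

end Frobenius

end CfsgLib.PPowerOrbits
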