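import Cfsg.Agent.PPowerOrbits.Blocks
import Cfsg.Agent.PPowerOrbits.Field

/-!
A cyclic `p`-subgroup (`p` odd) controlling the orbits of a perfect irreducible group: the
dimension is less than `p`, and the centralizer of its subgroup of order `p` is abelian.
-/

set_option autoImplicit false

namespace CfsgLib.PPowerOrbits

universe u v

open scoped IntermediateField

variable {K : Type u} {V : Type v} [Group K] [AddCommGroup V] [DistribMulAction K V]

theorem Irred.cyclic_bound [Finite K] [Finite V] [Nontrivial V] [FaithfulSMul K V] {p q : ℕ}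
    [hp : Fact p.Prime] [hq : Fact q.Prime] (hqp : q ≠ p) (hp2 : p ≠ 2)
    (hexp : ∀ v : V, q • v = 0) {P : Subgroup K} (h : Irred p P V) {g : K} {a : ℕ}
    (hg : P = Subgroup.zpowers g) (ha : orderOf g = p ^ a) (ha0 : a ≠ 0) :
    ∃ n, Nat.card V = q ^ n ∧ n ≤ p - 1 ∧
      ∀ k l : K, Commute k (g ^ p ^ (a - 1)) → Commute l (g ^ p ^ (a - 1)) → k * l = l * k := by
  classical
  haveI : NeZero p := ⟨hp.out.ne_zero⟩
  have hpow : ∀ π ∈ P, ∃ j : ℕ, g ^ j = π := fun π hπ => by
    rw [hg, ← mem_powers_iff_mem_zpowers] at hπ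
    exact hπ
  have hirr : ∀ W : AddSubgroup V, (∀ w ∈ W, g • w ∈ W) → W = ⊥ ∨ W = ⊤ := by
    intro W hW
    refine h.irreducible W fun π hπ w hw => ?_
    obtain ⟨j, rfl⟩ := hpow π hπ
    induction j with
    | zero => simpa using hw
    | succ j ih => rw [pow_succ', mul_smul]; exact hW _ (ih (hg ▸ Subgroup.npow_mem_zpowers g j))
  obtain ⟨F, _, _, _, ⟨M⟩⟩ := exists_model hexp g hirr
  haveI : CharP F q := charP_of_injective_algebraMap' (ZMod q) q
  set n := Module.finrank (ZMod q) F with hn
  have hcard : Nat.card F = q ^ n := by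
    rw [Module.natCard_eq_pow_finrank (K := ZMod q) (V := F), Nat.card_zmod]
  have hcardV : Nat.card V = q ^ n := by rw [← Nat.card_congr M.e.toEquiv, hcard]
  have hn0 : n ≠ 0 := Module.finrank_pos.ne'
  have hγ0 : M.γ ≠ 0 := by
    intro h0
    obtain ⟨v, hv⟩ := exists_ne (0 : V)
    have := M.smul (M.e.symm v)
    rw [h0, zero_mul, map_zero, AddEquiv.apply_symm_apply] at this
    exact hv ((smul_eq_zero_iff_eq g).mp this)
  -- `γ ^ (s * q ^ m) = γ ^ s` iff `p ^ a` divides `s * (q ^ m - 1)`
  have hfix : ∀ s m : ℕ, (M.γ ^ s) ^ q ^ m = M.γ ^ s ↔ p ^ a ∣ s * (q ^ m - 1) := by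
    intro s m
    rw [← ha, orderOf_dvd_iff_pow_eq_one, M.pow_eq_one_iff, pow_mul]
    have hq1 : q ^ m = (q ^ m - 1) + 1 := (Nat.succ_pred_eq_of_pos (pow_pos hq.out.pos m)).symm
    conv_lhs => rw [hq1, pow_succ]
    exact ⟨fun e => mul_eq_right₀ (pow_ne_zero s hγ0) |>.mp e, fun e => by rw [e, one_mul]⟩
  have hle : ∀ m : ℕ, m ≠ 0 → p ^ a ∣ q ^ m - 1 → n ≤ m := by
    intro m hm hd
    have h1 := M.card_le hm (by simpa using (hfix 1 m).mpr (by rw [one_mul]; exact hd))
    rw [hcardV] at h1
    exact (Nat.pow_le_pow_iff_right hq.out.one_lt).mp h1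
  have hnfix : p ^ a ∣ q ^ n - 1 := by
    have h1 : M.γ ^ q ^ n = M.γ := by
      rw [← hcard, Nat.card_eq_fintype_card]
      exact FiniteField.pow_card _
    simpa using (hfix 1 n).mp (by simpa using h1)
  -- the order of `q` modulo `p`
  set d := orderOf (q : ZMod p) with hd
  have hqz : (q : ZMod p) ≠ 0 := by
    rw [Ne, ZMod.natCast_eq_zero_iff]
    exact fun e => hqp ((Nat.prime_dvd_prime_iff_eq hp.out hq.out).mp e).symm
  have hdle : d ≤ p - 1 := Nat.le_of_dvd (Nat.sub_pos_of_lt hp.out.one_lt)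
    (orderOf_dvd_of_pow_eq_one (ZMod.pow_card_sub_one_eq_one hqz))
  have hd0 : d ≠ 0 := by
    intro e
    rw [hd, orderOf_eq_zero_iff'] at e
    exact e (p - 1) (Nat.sub_pos_of_lt hp.out.one_lt) (ZMod.pow_card_sub_one_eq_one hqz)
  have hpd : ∀ m : ℕ, p ∣ q ^ m - 1 ↔ d ∣ m := by
    intro m
    rw [hd, orderOf_dvd_iff_pow_eq_one, ← ZMod.natCast_eq_zero_iff,
      Nat.cast_sub (Nat.one_le_pow _ _ hq.out.pos), Nat.cast_pow, Nat.cast_one, sub_eq_zero]
  have hdn : d ∣ n := (hpd n).mp ((dvd_pow_self p ha0).trans hnfix)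
  set b := padicValNat p (q ^ d - 1) with hb
  have hodd : Odd p := hp.out.odd_of_ne_two hp2
  have hq1 : 1 < q ^ d := Nat.one_lt_pow hd0 hq.out.one_lt
  have hpq : ¬ p ∣ q ^ d := fun e =>
    hqp ((Nat.prime_dvd_prime_iff_eq hp.out hq.out).mp (hp.out.dvd_of_dvd_pow e)).symm
  have hval : ∀ m : ℕ, m ≠ 0 → padicValNat p (q ^ (d * m) - 1) = b + padicValNat p m := by
    intro m hm
    have := padicValNat.pow_sub_pow (p := p) hodd (x := q ^ d) (y := 1) hq1 ((hpd d).mpr dvd_rfl) hpq hm
    rwa [one_pow, ← pow_mul] at this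
  have hdvd : ∀ m : ℕ, m ≠ 0 → ∀ j, (p ^ j ∣ q ^ (d * m) - 1 ↔ j ≤ b + padicValNat p m) := by
    intro m hm j
    rw [← hval m hm]
    exact padicValNat_dvd_iff_le (Nat.sub_ne_zero_of_lt (Nat.one_lt_pow (by positivity) hq.out.one_lt))
  have hnd : n ≤ d := by
    by_contra hcon
    have hba : b < a := by
      by_contra e
      exact hcon (hle d hd0 (by simpa using (hdvd 1 one_ne_zero a).mpr (by simp; omega)))
    set d1 := d * p ^ (a - 1 - b) with hd1
    have hd10 : d1 ≠ 0 := mul_ne_zero hd0 (pow_ne_zero _ hp.out.ne_zero)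
    have hn1 : d1 * p ≤ n := by
      obtain ⟨m, hm⟩ := hdn
      have hm0 : m ≠ 0 := by rintro rfl; exact hn0 (by simpa using hm)
      have h1 := (hdvd m hm0 a).mp (hm ▸ hnfix)
      have h2 : p ^ (a - b) ∣ m := (padicValNat_dvd_iff_le hm0).mpr (by omega)
      rw [hm, hd1, mul_assoc, ← pow_succ, show a - 1 - b + 1 = a - b by omega]
      exact Nat.mul_le_mul_left d (Nat.le_of_dvd (Nat.pos_of_ne_zero hm0) h2)
    let S := fixedFrob (q := q) (F := F) d1
    have hγp : M.γ ^ p ∈ S := by
      rw [mem_fixedFrob, hfix]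
      have h1 := (hdvd (p ^ (a - 1 - b)) (pow_ne_zero _ hp.out.ne_zero) (a - 1)).mpr
        (by rw [padicValNat.prime_pow]; omega)
      rw [← hd1] at h1
      conv_lhs => rw [show a = a - 1 + 1 by omega, pow_succ']
      exact Nat.mul_dvd_mul_left p h1
    let φ : (ZMod p → S) →+ F :=
      { toFun := fun f => ∑ i, (f i : F) * M.γ ^ i.val
        map_zero' := by simp
        map_add' := fun f f' => by simp [add_mul, Finset.sum_add_distrib] }
    have hmul : ∀ (s : F) (hs : s ∈ S) (N : ℕ),
        s * M.γ ^ N = φ (Pi.single (N : ZMod p) ⟨s * (M.γ ^ p) ^ (N / p),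
          S.mul_mem hs (S.pow_mem hγp _)⟩) := by
      intro s hs N
      show _ = ∑ i, _
      rw [Finset.sum_eq_single (N : ZMod p)]
      · rw [Pi.single_eq_same, ZMod.val_natCast, mul_assoc, ← pow_mul, ← pow_add, Nat.div_add_mod]
      · intro i _ hi
        rw [Pi.single_eq_of_ne hi]
        simp
      · intro hi
        exact absurd (Finset.mem_univ _) hi
    have hsurj : Function.Surjective φ := by
      intro x
      have hx : x ∈ Algebra.adjoin (ZMod q) ({M.γ} : Set F) := by
        rw [M.gen _ (Algebra.subset_adjoin (Set.mem_singleton M.γ))]; trivial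
      rw [Algebra.adjoin_singleton_eq_range_aeval] at hx
      obtain ⟨P', rfl⟩ := hx
      show Polynomial.aeval M.γ P' ∈ φ.range
      induction P' using Polynomial.induction_on' with
      | add P₁ P₂ h₁ h₂ => rw [map_add]; exact φ.range.add_mem h₁ h₂
      | monomial N c =>
        rw [Polynomial.aeval_monomial, hmul _ (S.algebraMap_mem c) N]
        exact ⟨_, rfl⟩
    have hbij : Function.Bijective φ := by
      refine hsurj.bijective_of_nat_card_le ?_
      rw [Nat.card_pi, Finset.prod_const, Finset.card_univ, ZMod.card, hcard]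
      calc Nat.card S ^ p ≤ (q ^ d1) ^ p := Nat.pow_le_pow_left (card_fixedFrob_le hd10) p
        _ = q ^ (d1 * p) := (pow_mul _ _ _).symm
        _ ≤ q ^ n := Nat.pow_le_pow_right hq.out.pos hn1
    let W : ZMod p → AddSubgroup V := fun i =>
      (M.e.toAddMonoidHom.comp (φ.comp (AddMonoidHom.single (fun _ : ZMod p => S) i))).range
    refine h.no_blocks W (fun i => ?_) (fun f hf hs i => ?_) (fun π hπ => ?_)
    · refine ⟨_, ⟨1, rfl⟩, ?_⟩
      intro h0
      have h1 : φ (Pi.single i (1 : S)) = 0 := M.e.injective (h0.trans (map_zero M.e).symm)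
      have h2 := congrFun (hbij.1 (h1.trans (map_zero φ).symm)) i
      simp at h2
    · choose s hs' using hf
      have h1 : M.e (φ (fun j => s j)) = 0 := by
        rw [← hs, ← Finset.univ_sum_single (fun j => s j), map_sum, map_sum]
        exact Finset.sum_congr rfl fun j _ => hs' j
      have h2 : (fun j => s j) = 0 := hbij.1 ((M.e.injective (h1.trans (map_zero M.e).symm)).trans
        (map_zero φ).symm)
      rw [← hs' i, congrFun h2 i]
      simp
    · obtain ⟨j, rfl⟩ := hpow π hπ
      refine ⟨(j : ZMod p), fun i v hv => ?_⟩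
      obtain ⟨s, rfl⟩ := hv
      show g ^ j • M.e (φ (Pi.single i s)) ∈ W (i + j)
      have e1 : φ (Pi.single i s) = (s : F) * M.γ ^ i.val := by
        show ∑ l, _ = _
        rw [Finset.sum_eq_single i]
        · rw [Pi.single_eq_same]
        · intro l _ hl; rw [Pi.single_eq_of_ne hl]; simp
        · intro hi; exact absurd (Finset.mem_univ _) hi
      rw [M.pow_smul, e1, mul_left_comm, ← pow_add, hmul _ s.2,
        show ((j + i.val : ℕ) : ZMod p) = i + j by push_cast; rw [ZMod.natCast_zmod_val, add_comm]]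
      exact ⟨_, rfl⟩
  refine ⟨n, hcardV, hnd.trans hdle, ?_⟩
  -- the subgroup of order `p` generates the field
  set γ1 := M.γ ^ p ^ (a - 1) with hγ1
  have htop : Algebra.adjoin (ZMod q) ({γ1} : Set F) = ⊤ := by
    let L := (ZMod q)⟮γ1⟯
    have hL : L = ⊤ := by
      set m := Module.finrank (ZMod q) L with hm
      have hLc : Nat.card L = q ^ m := by
        rw [Module.natCard_eq_pow_finrank (K := ZMod q) (V := L), Nat.card_zmod]
      haveI : Fintype L := Fintype.ofFinite L
      have h1 : γ1 ^ q ^ m = γ1 := by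
        have h2 := FiniteField.pow_card (⟨γ1, IntermediateField.mem_adjoin_simple_self _ γ1⟩ : L)
        rw [← Nat.card_eq_fintype_card, hLc] at h2
        exact congrArg Subtype.val h2
      rw [hγ1, hfix] at h1
      have h3 : p ∣ q ^ m - 1 := by
        have e : p ^ a = p ^ (a - 1) * p := by rw [← pow_succ, show a - 1 + 1 = a by omega]
        rw [e] at h1
        exact Nat.dvd_of_mul_dvd_mul_left (pow_pos hp.out.pos _) h1
      have h4 : n ≤ m := hnd.trans (Nat.le_of_dvd Module.finrank_pos ((hpd m).mp h3))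
      refine IntermediateField.eq_of_le_of_finrank_le le_top ?_
      rw [IntermediateField.finrank_top']
      exact h4
    rw [← IntermediateField.adjoin_simple_toSubalgebra_of_isAlgebraic
      (IsAlgebraic.of_finite (ZMod q) γ1), show (ZMod q)⟮γ1⟯ = ⊤ from hL,
      IntermediateField.top_toSubalgebra]
  have key : ∀ k : K, Commute k (g ^ p ^ (a - 1)) → ∃ c : F, ∀ x, k • M.e x = M.e (c * x) := by
    intro k hk
    let T : F →+ F := M.e.symm.toAddMonoidHom.comp
      ((DistribMulAction.toAddMonoidHom V k).comp M.e.toAddMonoidHom)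
    have hT : ∀ x, M.e (T x) = k • M.e x := fun x => M.e.apply_symm_apply _
    have hγT : ∀ y, T (γ1 * y) = γ1 * T y := by
      intro y
      apply M.e.injective
      rw [hT, hγ1, ← M.pow_smul, ← M.pow_smul, hT, smul_smul, smul_smul, hk.eq]
    let S' : Subalgebra (ZMod q) F :=
      { carrier := {x | ∀ y, T (x * y) = x * T y}
        mul_mem' := fun {x y} hx hy z => by rw [mul_assoc, hx, hy, mul_assoc]
        one_mem' := fun z => by rw [one_mul, one_mul]
        add_mem' := fun {x y} hx hy z => by rw [add_mul, map_add, hx, hy, add_mul]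
        zero_mem' := fun z => by rw [zero_mul, map_zero, zero_mul]
        algebraMap_mem' := fun r z => by
          rw [← ZMod.natCast_zmod_val r, map_natCast, ← nsmul_eq_mul, map_nsmul, nsmul_eq_mul] }
    refine ⟨T 1, fun x => ?_⟩
    have hx : x ∈ S' := by
      refine Algebra.adjoin_le (S := S') ?_ (show x ∈ Algebra.adjoin (ZMod q) ({γ1} : Set F) by
        rw [htop]; trivial)
      rintro y rfl
      exact hγT
    rw [← hT, show T x = x * T 1 by simpa using hx 1, mul_comm]
  intro k l hk hl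
  obtain ⟨c, hc⟩ := key k hk
  obtain ⟨c', hc'⟩ := key l hl
  refine FaithfulSMul.eq_of_smul_eq_smul (fun w : V => ?_)
  rw [← M.e.apply_symm_apply w, mul_smul, mul_smul, hc', hc, hc, hc', mul_left_comm]

end CfsgLib.PPowerOrbits
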