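import Cfsg.Agent.PPowerOrbits.Blocks
import Cfsg.Agent.PPowerOrbits.Field

/-!
A 2-subgroup with a cyclic subgroup of index two controlling the orbits of a perfect irreducible
group: the dimension is two, and then the group is a 2-group.
-/

set_option autoImplicit false

namespace CfsgLib.PPowerOrbits

open scoped Matrix

universe u v

variable {K : Type u} {V : Type v} [Group K] [AddCommGroup V] [DistribMulAction K V]

theorem Irred.card_eq_sq [Finite K] [Finite V] [Nontrivial V] [FaithfulSMul K V] {q : ℕ}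
    [hq : Fact q.Prime] (hq2 : q ≠ 2) (hexp : ∀ v : V, q • v = 0) {P : Subgroup K}
    (h : Irred 2 P V) {c x : K} {m r : ℕ} (hc : orderOf c = 2 ^ m) (hm : 2 ≤ m)
    (hr : r % 4 = 3) (hconj : x * c * x⁻¹ = c ^ r) (hxx : x * x ∈ Subgroup.zpowers c)
    (hP : ∀ π ∈ P, ∃ i : ℕ, π = c ^ i ∨ π = c ^ i * x) :
    Nat.card V = q ^ 2 := by
  classical
  obtain ⟨j₀, hj₀⟩ : ∃ j : ℕ, c ^ j = x * x := by rwa [← mem_powers_iff_mem_zpowers] at hxx
  have hrr : c ^ (r * r) = c := by
    have h1 : x * (x * c * x⁻¹) * x⁻¹ = c ^ (r * r) := by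
      rw [hconj, ← conj_pow, hconj, ← pow_mul]
    rw [← h1, show x * (x * c * x⁻¹) * x⁻¹ = (x * x) * c * (x * x)⁻¹ by group, ← hj₀]
    exact mul_inv_eq_of_eq_mul (Commute.pow_self c j₀).eq
  have hcx : c * x = x * c ^ r := by
    calc c * x = c ^ (r * r) * x := by rw [hrr]
      _ = (c ^ r) ^ r * x := by rw [pow_mul]
      _ = (x * c * x⁻¹) ^ r * x := by rw [hconj]
      _ = x * c ^ r := by rw [conj_pow, inv_mul_cancel_right]
  -- `c` is irreducible
  have hirr : ∀ W : AddSubgroup V, (∀ w ∈ W, c • w ∈ W) → W = ⊥ ∨ W = ⊤ := by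
    intro W hW
    by_contra hcon
    push Not at hcon
    have hpowW : ∀ i : ℕ, ∀ w ∈ W, c ^ i • w ∈ W := by
      intro i w hw
      induction i with
      | zero => simpa using hw
      | succ i ih => rw [pow_succ', mul_smul]; exact hW _ ih
    let W1 : AddSubgroup V := W.map (DistribMulAction.toAddMonoidHom V x)
    have hW1 : ∀ i : ℕ, ∀ w ∈ W1, c ^ i • w ∈ W1 := by
      rintro i _ ⟨w, hw, rfl⟩
      induction i with
      | zero => exact ⟨w, hw, by simp⟩
      | succ i ih =>
        obtain ⟨w', hw', e⟩ := ih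
        refine ⟨c ^ r • w', hpowW r _ hw', ?_⟩
        show x • c ^ r • w' = c ^ (i + 1) • x • w
        rw [pow_succ', mul_smul c, ← show x • w' = c ^ i • x • w from e, smul_smul, smul_smul, hcx]
    have hx0 : ∀ w ∈ W, x • w ∈ W1 := fun w hw => ⟨w, hw, rfl⟩
    have hx1 : ∀ w ∈ W1, x • w ∈ W := by
      rintro _ ⟨w, hw, rfl⟩
      show x • x • w ∈ W
      rw [smul_smul, ← hj₀]
      exact hpowW _ _ hw
    have hP' : ∀ π ∈ P, ∀ U : AddSubgroup V, (∀ i : ℕ, ∀ w ∈ U, c ^ i • w ∈ U) →
        (∀ w ∈ U, x • w ∈ U) → ∀ w ∈ U, π • w ∈ U := by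
      intro π hπ U hc' hx' w hw
      obtain ⟨i, rfl | rfl⟩ := hP π hπ
      · exact hc' i w hw
      · rw [mul_smul]; exact hc' i _ (hx' w hw)
    have hinf : W ⊓ W1 = ⊥ := by
      rcases h.irreducible (W ⊓ W1) (fun π hπ => hP' π hπ _
        (fun i w hw => ⟨hpowW i w hw.1, hW1 i w hw.2⟩)
        (fun w hw => ⟨hx1 w hw.2, hx0 w hw.1⟩)) with e | e
      · exact e
      · exact absurd (le_antisymm le_top (e ▸ inf_le_left : ⊤ ≤ W)) hcon.2
    obtain ⟨a, haW, ha0⟩ : ∃ a ∈ W, a ≠ 0 := by
      by_contra e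
      push Not at e
      exact hcon.1 (eq_bot_iff.mpr fun w hw => AddSubgroup.mem_bot.mpr (e w hw))
    let B : ZMod 2 → AddSubgroup V := fun i => if i = 0 then W else W1
    have hB0 : B 0 = W := rfl
    have hB1 : B 1 = W1 := rfl
    refine h.no_blocks B (fun i => ?_) (fun f hf hs i => ?_) (fun π hπ => ?_)
    · fin_cases i
      · exact ⟨a, haW, ha0⟩
      · exact ⟨x • a, hx0 a haW, fun e => ha0 ((smul_eq_zero_iff_eq x).mp e)⟩
    · have h0 : f 0 ∈ W := hf 0
      have h1 : f 1 ∈ W1 := hf 1
      replace hs : f 0 + f 1 = 0 := (Fin.sum_univ_two f).symm.trans hs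
      have e0 : f 0 = 0 := by
        have : f 0 ∈ W ⊓ W1 := ⟨h0, by
          rw [eq_neg_of_add_eq_zero_left hs]; exact W1.neg_mem h1⟩
        rwa [hinf, AddSubgroup.mem_bot] at this
      fin_cases i
      · exact e0
      · rw [e0, zero_add] at hs; exact hs
    · obtain ⟨j, rfl | rfl⟩ := hP π hπ
      · refine ⟨0, fun i v hv => ?_⟩
        rw [add_zero]
        fin_cases i
        · exact hpowW j v hv
        · exact hW1 j v hv
      · refine ⟨1, fun i v hv => ?_⟩
        rw [mul_smul]
        fin_cases i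
        · exact hW1 j _ (hx0 v hv)
        · exact hpowW j _ (hx1 v hv)
  obtain ⟨F, _, _, _, ⟨M⟩⟩ := exists_model hexp c hirr
  haveI : CharP F q := charP_of_injective_algebraMap' (ZMod q) q
  set n := Module.finrank (ZMod q) F with hn
  have hcardV : Nat.card V = q ^ n := by
    rw [← Nat.card_congr M.e.toEquiv, Module.natCard_eq_pow_finrank (K := ZMod q) (V := F),
      Nat.card_zmod]
  have hγord : orderOf M.γ = 2 ^ m := by
    rw [← hc]
    exact orderOf_eq_orderOf_iff.mpr fun i => (M.pow_eq_one_iff i).symm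
  have hγ0 : M.γ ≠ 0 := by
    intro e
    rw [e, orderOf_zero] at hγord
    exact absurd hγord.symm (pow_ne_zero m two_ne_zero)
  have hfin : IsOfFinOrder M.γ := orderOf_pos_iff.mp (hγord ▸ pow_pos two_pos m)
  -- `x` induces a field automorphism
  let T : F →+ F := M.e.symm.toAddMonoidHom.comp
    ((DistribMulAction.toAddMonoidHom V x).comp M.e.toAddMonoidHom)
  have hT : ∀ y, M.e (T y) = x • M.e y := fun y => M.e.apply_symm_apply _
  have hTγ : ∀ y, T (M.γ * y) = M.γ ^ r * T y := by
    intro y
    apply M.e.injective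
    rw [hT, ← M.smul, ← M.pow_smul, hT, smul_smul, smul_smul, ← hconj, inv_mul_cancel_right]
  have hT1 : T 1 ≠ 0 := by
    intro e
    have := hT 1
    rw [e, map_zero] at this
    exact one_ne_zero (M.e.injective ((smul_eq_zero_iff_eq x).mp this.symm |>.trans (map_zero M.e).symm))
  let S' : Subalgebra (ZMod q) F :=
    { carrier := {s | ∀ y, T (s * y) * T 1 = T s * T y}
      mul_mem' := fun {s t} hs ht y => by
        apply mul_right_cancel₀ hT1
        have e1 := hs (t * y)
        have e2 := ht y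
        have e3 := hs t
        rw [mul_assoc s t y]
        linear_combination (T 1) * e1 + (T s) * e2 - (T y) * e3
      one_mem' := fun y => by rw [one_mul, mul_comm]
      add_mem' := fun {s t} hs ht y => by
        rw [add_mul, map_add, map_add, add_mul, add_mul, hs y, ht y]
      zero_mem' := fun y => by simp
      algebraMap_mem' := fun a y => by
        rw [← ZMod.natCast_zmod_val a, map_natCast, ← nsmul_eq_mul, map_nsmul,
          show T ((ZMod.val a : ℕ) : F) = ZMod.val a • T 1 by rw [← map_nsmul, nsmul_one]]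
        rw [nsmul_eq_mul, nsmul_eq_mul]
        ring }
  have hS' : S' = ⊤ := M.gen S' fun y => by
    show T (M.γ * y) * T 1 = T M.γ * T y
    have := hTγ 1
    rw [mul_one] at this
    rw [hTγ, this]
    ring
  let σ : F →ₐ[ZMod q] F :=
    AlgHom.mk'
      { toFun := fun s => T s * (T 1)⁻¹
        map_one' := mul_inv_cancel₀ hT1
        map_mul' := fun s t => by
          have e := (show s ∈ S' by rw [hS']; trivial) t
          field_simp
          linear_combination e
        map_zero' := by simp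
        map_add' := fun s t => by rw [map_add, add_mul] }
      (fun a s => by
        show T (a • s) * (T 1)⁻¹ = a • (T s * (T 1)⁻¹)
        rw [ZMod.map_smul T, smul_mul_assoc])
  have hσγ : σ M.γ = M.γ ^ r := by
    show T M.γ * (T 1)⁻¹ = _
    have := hTγ 1
    rw [mul_one] at this
    rw [this, mul_assoc, mul_inv_cancel₀ hT1, mul_one]
  obtain ⟨j, hj⟩ := FiniteField.exists_forall_apply_eq_pow (k := ZMod q) q F
    (AlgEquiv.ofBijective σ (Finite.injective_iff_bijective.mp σ.toRingHom.injective))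
  have hj' : M.γ ^ r = M.γ ^ q ^ j := by
    have h1 := hj M.γ
    rw [Nat.card_zmod] at h1
    rw [← hσγ]
    exact h1
  have hmod : r ≡ q ^ j [MOD 2 ^ m] := by
    rw [← hγord]
    exact (hfin).pow_eq_pow_iff_modEq.mp hj'
  have h4 : (4 : ℕ) ∣ 2 ^ m := by rw [show (4 : ℕ) = 2 ^ 2 from rfl]; exact pow_dvd_pow 2 hm
  have hq4 : q ^ j % 4 = 3 := by rw [← hr]; exact (hmod.of_dvd h4).symm
  have hjodd : Odd j := by
    rcases Nat.even_or_odd j with ⟨i, rfl⟩ | h'
    · exfalso
      rw [← two_mul, pow_mul, Nat.pow_mod] at hq4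
      have hsq : q ^ 2 % 4 = 1 := by
        rw [Nat.pow_mod]
        have : q % 2 = 1 := Nat.odd_iff.mp (hq.out.odd_of_ne_two hq2)
        have h4' : q % 4 = 1 ∨ q % 4 = 3 := by omega
        rcases h4' with e | e <;> rw [e] <;> rfl
      rw [hsq, one_pow] at hq4
      exact absurd hq4 (by decide)
    · exact h'
  -- `n` divides every `i` with `γ ^ (q ^ i) = γ`
  have hdvd : ∀ i, M.γ ^ q ^ i = M.γ → n ∣ i := by
    intro i hi
    rw [hn, ← FiniteField.orderOf_frobeniusAlgEquivOfAlgebraic (ZMod q) F, orderOf_dvd_iff_pow_eq_one]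
    apply AlgEquiv.ext
    intro y
    rw [AlgEquiv.coe_pow, FiniteField.coe_frobeniusAlgEquivOfAlgebraic_iterate, ZMod.card]
    exact mem_fixedFrob.mp (show y ∈ fixedFrob (q := q) i by
      rw [M.gen _ (mem_fixedFrob.mpr hi)]; trivial)
  have h2j : n ∣ 2 * j := by
    refine hdvd _ ?_
    rw [two_mul, pow_add, pow_mul, ← hj', ← pow_mul, mul_comm r, pow_mul, ← hj', ← pow_mul]
    have h1 := M.pow_smul (r * r) 1
    rw [hrr, M.smul, mul_one, mul_one] at h1
    exact (M.e.injective h1).symm
  have hn2 : n ∣ 2 ^ (m - 1) := by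
    refine hdvd _ ?_
    have h1 := Nat.ModEq.pow_totient (x := q) (n := 2 ^ m)
      (Nat.Coprime.pow_right m ((Nat.coprime_primes hq.out Nat.prime_two).mpr hq2))
    rw [Nat.totient_prime_pow Nat.prime_two (by omega), show 2 - 1 = 1 from rfl, mul_one, ← hγord] at h1
    conv_rhs => rw [← pow_one M.γ]
    exact hfin.pow_eq_pow_iff_modEq.mpr h1
  have hn2' : n ∣ 2 := by
    obtain ⟨i, -, hi⟩ := (Nat.dvd_prime_pow Nat.prime_two).mp hn2
    rcases Nat.lt_or_ge i 2 with h' | h'
    · rw [hi]; exact pow_dvd_pow 2 (by omega : i ≤ 1) |>.trans (by norm_num)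
    · exfalso
      have h4j : 4 ∣ 2 * j := (show (4 : ℕ) ∣ n by
        rw [hi, show (4 : ℕ) = 2 ^ 2 from rfl]; exact pow_dvd_pow 2 h').trans h2j
      obtain ⟨i', hi'⟩ := hjodd
      omega
  rcases (Nat.dvd_prime Nat.prime_two).mp hn2' with e | e
  · exfalso
    have hall : ∀ y : F, y ^ q = y := by
      intro y
      haveI : Fintype F := Fintype.ofFinite F
      have := FiniteField.pow_card y
      rwa [← Nat.card_eq_fintype_card, Module.natCard_eq_pow_finrank (K := ZMod q) (V := F),
        Nat.card_zmod, ← hn, e, pow_one] at this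
    have hfix : ∀ i : ℕ, M.γ ^ q ^ i = M.γ := by
      intro i
      induction i with
      | zero => simp
      | succ i ih => rw [pow_succ, pow_mul, ih, hall]
    have h1 : r ≡ 1 [MOD 2 ^ m] := by
      rw [← hγord]
      refine hfin.pow_eq_pow_iff_modEq.mp ?_
      rw [pow_one, hj', hfix]
    have := h1.of_dvd h4
    rw [Nat.ModEq, hr] at this
    exact absurd this (by decide)
  · rw [hcardV, e]

/-- In dimension two: a perfect group in which every element of odd prime order fixes a non-zero
vector is trivial. -/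
theorem subsingleton_of_sq [Finite K] [FaithfulSMul K V] {q : ℕ} [hq : Fact q.Prime]
    (hcop : (Nat.card K).Coprime q) (hexp : ∀ v : V, q • v = 0) (hcard : Nat.card V = q ^ 2)
    (hperf : commutator K = ⊤)
    (hfix : ∀ g : K, (∃ l : ℕ, l.Prime ∧ l ≠ 2 ∧ orderOf g = l) → ∃ v : V, v ≠ 0 ∧ g • v = v) :
    Subsingleton K := by
  classical
  haveI : Finite V := Nat.finite_of_card_ne_zero (by rw [hcard]; exact pow_ne_zero _ hq.out.ne_zero)
  have inst : Module (ZMod q) V := AddCommGroup.zmodModule hexp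
  have hfr : Module.finrank (ZMod q) V = 2 := by
    have := Module.natCard_eq_pow_finrank (K := ZMod q) (V := V)
    rw [hcard, Nat.card_zmod] at this
    exact (Nat.pow_right_injective hq.out.two_le this).symm
  let B := Module.finBasisOfFinrankEq (ZMod q) V hfr
  let ρ : K →* Matrix (Fin 2) (Fin 2) (ZMod q) :=
    { toFun := fun k => LinearMap.toMatrix B B
        (AddMonoidHom.toZModLinearMap q (DistribMulAction.toAddMonoidHom V k))
      map_one' := by
        rw [show AddMonoidHom.toZModLinearMap q (DistribMulAction.toAddMonoidHom V (1 : K)) = LinearMap.id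
          from LinearMap.ext fun w => one_smul K w, LinearMap.toMatrix_id]
      map_mul' := fun k l => by
        rw [← LinearMap.toMatrix_comp B B B]
        congr 1
        exact LinearMap.ext fun w => mul_smul k l w }
  have hdet : ∀ k, (ρ k).det = 1 := fun k => by
    simpa using hom_eq_one_of_perfect hperf (Matrix.detMonoidHom.comp ρ) k
  have hρinj : ∀ k, ρ k = 1 → k = 1 := by
    intro k hk
    refine FaithfulSMul.eq_of_smul_eq_smul (fun w : V => ?_)
    rw [one_smul]
    have : AddMonoidHom.toZModLinearMap q (DistribMulAction.toAddMonoidHom V k) = LinearMap.id :=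
      (LinearMap.toMatrix B B).injective (by rw [LinearMap.toMatrix_id]; exact hk)
    exact LinearMap.congr_fun this w
  have h2 : IsPGroup 2 K := by
    refine IsPGroup.of_card (n := (Nat.card K).primeFactorsList.length) ?_
    refine Nat.eq_prime_pow_of_unique_prime_dvd Nat.card_pos.ne' fun {l} hl hld => ?_
    by_contra hl2
    haveI := Fact.mk hl
    obtain ⟨g, hg⟩ := exists_prime_orderOf_dvd_card' (G := K) l hld
    obtain ⟨v, hv0, hgv⟩ := hfix g ⟨l, hl, hl2, hg⟩
    have h1 : ((ρ g) - 1).det = 0 := by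
      rw [← Matrix.exists_mulVec_eq_zero_iff]
      refine ⟨B.repr v, fun e => hv0 (B.repr.map_eq_zero_iff.mp (Finsupp.ext fun i => congrFun e i)), ?_⟩
      rw [Matrix.sub_mulVec, Matrix.one_mulVec, sub_eq_zero]
      show LinearMap.toMatrix B B _ *ᵥ ⇑(B.repr v) = _
      rw [LinearMap.toMatrix_mulVec_repr]
      exact congrArg (fun w => ⇑(B.repr w)) hgv
    have hd := hdet g
    rw [Matrix.det_fin_two] at h1 hd
    simp only [Matrix.sub_apply, Matrix.one_apply_eq, Matrix.one_apply_ne (show (0 : Fin 2) ≠ 1 by decide),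
      Matrix.one_apply_ne (show (1 : Fin 2) ≠ 0 by decide), sub_zero] at h1
    have htr : ρ g 0 0 + ρ g 1 1 = 2 := by linear_combination hd - h1
    have hsq : (ρ g - 1) * (ρ g - 1) = 0 := by
      ext i j
      rw [Matrix.mul_apply, Fin.sum_univ_two]
      fin_cases i <;> fin_cases j <;>
        simp only [Fin.zero_eta, Fin.mk_one, Matrix.sub_apply, Matrix.one_apply_eq, Matrix.zero_apply,
          Matrix.one_apply_ne (show (0 : Fin 2) ≠ 1 by decide),
          Matrix.one_apply_ne (show (1 : Fin 2) ≠ 0 by decide), sub_zero]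
      · linear_combination (ρ g 0 0 - 1) * htr - h1
      · linear_combination ρ g 0 1 * htr
      · linear_combination ρ g 1 0 * htr
      · linear_combination (ρ g 1 1 - 1) * htr - h1
    have hpow : (ρ g - 1) ^ q = 0 := by
      exact pow_eq_zero_of_le hq.out.two_le (by rw [pow_two, hsq])
    rw [sub_pow_char_of_commute q (Commute.one_right _), one_pow, sub_eq_zero, ← map_pow] at hpow
    have hgq : g ^ q = 1 := hρinj _ hpow
    have hlq : l = q := (Nat.prime_dvd_prime_iff_eq hl hq.out).mp (hg ▸ orderOf_dvd_of_pow_eq_one hgq)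
    exact (hq.out.coprime_iff_not_dvd.mp hcop.symm) (hlq ▸ hld)
  rcases subsingleton_or_nontrivial K with hs | hnt
  · exact hs
  · exfalso
    haveI := h2.isNilpotent
    exact absurd hperf (IsSolvable.commutator_lt_top_of_nontrivial K).ne

end CfsgLib.PPowerOrbits
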