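import Cfsg.Agent.PPowerOrbits.Cyclic
import Cfsg.Agent.PPowerOrbits.Two
import Cfsg.Agent.PGroup.Normal
import Cfsg.Agent.PGroup.UniqueOrderP
import Cfsg.Agent.TwoGroup.NormalRankOne
import Cfsg.Agent.SolvableStructure.Product
import Cfsg.Agent.Constrained.Fitting
import Cfsg.Agent.S0675
import Cfsg.Agent.S3972

/-!
A group acting faithfully and coprimely on an elementary abelian group, with every orbit of
`p`-power length, is solvable (Camina–Camina, used for Baer's theorem on `q`-Baer groups).
The proof uses no classification: Burnside, Schur and elementary field arguments suffice.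
-/

set_option autoImplicit false

namespace CfsgLib.PPowerOrbits

universe u v

open scoped BigOperators

section Core

variable {K : Type u} {V : Type v} [Group K] [AddCommGroup V] [DistribMulAction K V]

/-- `P` has no abelian normal subgroup with more than `p` elements of order dividing `p`. -/
theorem Irred.no_omega [FaithfulSMul K V] [Finite K] [Nontrivial V] {p q : ℕ} [hp : Fact p.Prime]
    [Fact q.Prime] (hqp : q ≠ p) (hexp : ∀ v : V, q • v = 0) {P : Subgroup K} (hPp : IsPGroup p P)
    (h : Irred p P V) (B : Subgroup P) [B.Normal] (hBc : ∀ a ∈ B, ∀ b ∈ B, a * b = b * a)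
    (hBp : ∀ a ∈ B, a ^ p = 1) (hbig : ∀ z ∈ B, ∃ a ∈ B, a ∉ Subgroup.zpowers z) : False := by
  classical
  have hBne : B ≠ ⊥ := by
    intro e
    obtain ⟨a, ha, ha'⟩ := hbig 1 (one_mem B)
    exact ha' (by rw [e, Subgroup.mem_bot] at ha; rw [ha]; exact one_mem _)
  obtain ⟨z, ⟨hzB, hzC⟩, hz1⟩ : ∃ z, z ∈ B ⊓ Subgroup.center P ∧ z ≠ 1 := by
    have := CfsgLib.PGroup.inf_center_ne_bot hPp B hBne
    by_contra e
    push Not at e
    exact this (eq_bot_iff.mpr fun x hx => Subgroup.mem_bot.mpr (e x hx))
  replace hzC := Subgroup.mem_center_iff.mp hzC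
  set Z := Subgroup.zpowers z with hZ
  haveI hZn : Z.Normal := ⟨fun n hn g => by
    obtain ⟨i, rfl⟩ := Subgroup.mem_zpowers_iff.mp hn
    rw [((show Commute g z from hzC g).zpow_right i).eq, mul_inv_cancel_right]
    exact Subgroup.zpow_mem_zpowers z i⟩
  obtain ⟨a, haB, haZ⟩ := hbig z hzB
  have hB' : B.map (QuotientGroup.mk' Z) ≠ ⊥ := by
    intro e
    apply haZ
    rw [← QuotientGroup.eq_one_iff]
    exact Subgroup.mem_bot.mp (e ▸ Subgroup.mem_map_of_mem (QuotientGroup.mk' Z) haB)
  haveI : (B.map (QuotientGroup.mk' Z)).Normal :=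
    Subgroup.Normal.map inferInstance _ (QuotientGroup.mk'_surjective Z)
  obtain ⟨y, ⟨⟨e, heB, rfl⟩, hyC⟩, hy1⟩ :
      ∃ y, y ∈ B.map (QuotientGroup.mk' Z) ⊓ Subgroup.center (P ⧸ Z) ∧ y ≠ 1 := by
    have := CfsgLib.PGroup.inf_center_ne_bot (hPp.to_quotient Z) _ hB'
    by_contra e
    push Not at e
    exact this (eq_bot_iff.mpr fun x hx => Subgroup.mem_bot.mpr (e x hx))
  replace hyC := Subgroup.mem_center_iff.mp hyC
  have heZ : e ∉ Z := fun he => hy1 ((QuotientGroup.eq_one_iff e).mpr he)
  refine h.no_rank_two (z := (z : K)) (e := (e : K)) hqp hexp ?_ ?_ z.2 ?_ ?_ ?_ ?_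
  · rw [Subgroup.orderOf_coe]; exact orderOf_eq_prime (hBp z hzB) hz1
  · exact congrArg Subtype.val (hBp e heB)
  · exact fun π hπ => congrArg Subtype.val (hzC ⟨π, hπ⟩)
  · exact congrArg Subtype.val (hzC e).symm
  · intro π hπ
    have h1 := hyC (QuotientGroup.mk' Z ⟨π, hπ⟩)
    have h2 : e⁻¹ * (⟨π, hπ⟩ * e * ⟨π, hπ⟩⁻¹) ∈ Z := by
      rw [← QuotientGroup.eq_one_iff]
      simp only [QuotientGroup.mk'_apply] at h1
      rw [QuotientGroup.mk_mul, QuotientGroup.mk_mul, QuotientGroup.mk_mul, h1, QuotientGroup.mk_inv,
        QuotientGroup.mk_inv]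
      group
    rw [hZ, ← mem_powers_iff_mem_zpowers] at h2
    obtain ⟨c, hc⟩ := h2
    refine ⟨c, ?_⟩
    have h3 := congrArg (fun x : P => (e * x : P)) hc
    simp only [mul_inv_cancel_left] at h3
    simpa using (congrArg Subtype.val h3).symm
  · intro he
    obtain ⟨i, hi⟩ := Subgroup.mem_zpowers_iff.mp he
    exact heZ ⟨i, Subtype.ext (by simpa using hi)⟩

/-- The irreducible case. -/
theorem Irred.false_of_irreducible [Finite K] [Finite V] [FaithfulSMul K V] [Nontrivial V] {p q : ℕ}
    [hp : Fact p.Prime] [hq : Fact q.Prime] (hexp : ∀ v : V, q • v = 0)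
    (hcop : (Nat.card K).Coprime q) (horb : ∀ v : V, ∃ a, (MulAction.stabilizer K v).index = p ^ a)
    (P : Sylow p K) (h : Irred p (P : Subgroup K) V)
    (hnormal : ∀ M : Subgroup K, M.Normal → M ≠ ⊤ → Group.IsSolvable M)
    (hns : ¬ Group.IsSolvable K) : False := by
  classical
  have hnt : Nontrivial K := by
    by_contra e
    rw [not_nontrivial_iff_subsingleton] at e
    exact hns (Group.isSolvable_of_comm fun k l => Subsingleton.elim _ _)
  have hPbot : (P : Subgroup K) ≠ ⊥ := by
    intro e
    obtain ⟨k, hk⟩ := exists_ne (1 : K)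
    refine hk (FaithfulSMul.eq_of_smul_eq_smul (fun w : V => ?_))
    obtain ⟨π, hπ, e'⟩ := h.orbit k w
    rw [e, Subgroup.mem_bot] at hπ
    rw [← e', hπ]
  have hpK : p ∣ Nat.card K := by
    by_contra e
    exact hPbot ((Subgroup.card_eq_one).mp (by
      obtain ⟨n, hn⟩ := IsPGroup.iff_card.mp P.isPGroup'
      rcases Nat.eq_zero_or_pos n with rfl | h0
      · simpa using hn
      · exact absurd ((dvd_pow_self p h0.ne').trans (hn ▸ Subgroup.card_subgroup_dvd_card _)) e))
  have hqp : q ≠ p := fun e => hq.out.coprime_iff_not_dvd.mp hcop.symm (e ▸ hpK)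
  have hPp : IsPGroup p (P : Subgroup K) := P.isPGroup'
  have hcopl : ∀ (l : ℕ), l.Prime → l ≠ p → ∀ (v : V) (R : Sylow l K),
      ∃ k : K, ∀ r ∈ (R : Subgroup K), (k * r * k⁻¹) • v = v := by
    intro l hl hlp v R
    haveI := Fact.mk hl
    obtain ⟨a, ha⟩ := horb v
    let R₀ : Sylow l (MulAction.stabilizer K v) := Classical.arbitrary _
    have hnd : ¬ l ∣ (MulAction.stabilizer K v).index := by
      rw [ha]
      exact fun e => hlp ((Nat.prime_dvd_prime_iff_eq hl hp.out).mp (hl.dvd_of_dvd_pow e))
    have hcard : Nat.card ↥((R₀ : Subgroup _).map (MulAction.stabilizer K v).subtype) =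
        l ^ (Nat.card K).factorization l := by
      rw [Subgroup.card_map_of_injective (MulAction.stabilizer K v).subtype_injective, R₀.card_eq_multiplicity,
        ← (MulAction.stabilizer K v).card_mul_index,
        Nat.factorization_mul Nat.card_pos.ne' Subgroup.index_ne_zero_of_finite, Finsupp.add_apply,
        Nat.factorization_eq_zero_of_not_dvd hnd, add_zero]
    let R₁ : Sylow l K := Sylow.ofCard _ hcard
    obtain ⟨k, hk⟩ := MulAction.exists_smul_eq K R R₁
    refine ⟨k, fun r hr => ?_⟩
    have h1 : k * r * k⁻¹ ∈ (R₁ : Subgroup K) := by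
      rw [← hk, Sylow.coe_subgroup_smul]
      exact ⟨r, hr, rfl⟩
    obtain ⟨s, -, hs⟩ := h1
    rw [← hs]
    exact s.2
  -- the normal subgroups of order prime to `p` are trivial
  have hcore : ∀ (l : ℕ), l.Prime → l ≠ p → ∀ L : Subgroup K, L.Normal → IsPGroup l L → L = ⊥ := by
    intro l hl hlp L hL hLl
    haveI := Fact.mk hl
    obtain ⟨R, hR⟩ := hLl.exists_le_sylow
    refine eq_bot_iff.mpr fun x hx => Subgroup.mem_bot.mpr
      (FaithfulSMul.eq_of_smul_eq_smul (fun w : V => ?_))
    obtain ⟨k, hk⟩ := hcopl l hl hlp w R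
    rw [one_smul]
    have := hk _ (hR (hL.conj_mem x hx k⁻¹))
    rwa [inv_inv, ← mul_assoc, ← mul_assoc, mul_inv_cancel, one_mul, mul_inv_cancel_right] at this
  rcases eq_or_ne p 2 with rfl | hp2
  · -- the prime two
    have hq2 : q ≠ 2 := hqp
    have hcyc : ¬ IsCyclic (P : Subgroup K) := by
      intro hc
      have hmin : (Nat.card K).minFac = 2 := Nat.minFac_eq_two_iff _ |>.mpr hpK
      have hN := IsCyclic.normalizer_le_centralizer hmin hc
      have hcomp := MonoidHom.ker_transferSylow_isComplement' P hN
      haveI := hc.isMulCommutative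
      have hker : (MonoidHom.transferSylow P hN).ker = ⊤ := by
        rw [eq_top_iff]
        intro k _
        letI : CommGroup (P : Subgroup K) :=
          { (inferInstance : Group (P : Subgroup K)) with
            mul_comm := fun a b => IsMulCommutative.is_comm.comm a b }
        exact hom_eq_one_of_perfect h.perfect (MonoidHom.transferSylow P hN) k
      exact hPbot (by simpa [hker] using hcomp.disjoint.eq_bot)
    have hnoab : ∀ A : Subgroup (P : Subgroup K), A.Normal → IsMulCommutative A → IsCyclic A := by
      intro A hA hAc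
      by_contra hAcyc
      have hcomm : ∀ a ∈ A, ∀ b ∈ A, a * b = b * a := fun a ha b hb =>
        congrArg Subtype.val (hAc.is_comm.comm ⟨a, ha⟩ ⟨b, hb⟩)
      have hone : ¬ CfsgLib.TwoGroup.AtMostOneInvolution A := fun e => hAcyc
        (CfsgLib.TwoGroup.isCyclic_of_comm_atMostOneInvolution (hPp.to_subgroup A)
          (fun a b => hAc.is_comm.comm a b) e)
      rw [CfsgLib.TwoGroup.AtMostOneInvolution] at hone
      push Not at hone
      obtain ⟨s, t, hs, ht, hst⟩ := hone
      let B : Subgroup (P : Subgroup K) :=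
        { carrier := {x | x ∈ A ∧ x ^ 2 = 1}
          one_mem' := ⟨one_mem A, one_pow _⟩
          mul_mem' := fun {a b} ha hb => ⟨mul_mem ha.1 hb.1, by
            rw [(show Commute a b from hcomm a ha.1 b hb.1).mul_pow, ha.2, hb.2, one_mul]⟩
          inv_mem' := fun {a} ha => ⟨inv_mem ha.1, by rw [inv_pow, ha.2, inv_one]⟩ }
      haveI : B.Normal := ⟨fun x hx g => ⟨hA.conj_mem x hx.1 g, by rw [conj_pow, hx.2, mul_one, mul_inv_cancel]⟩⟩
      refine h.no_omega (p := 2) hqp hexp hPp B (fun a ha b hb => hcomm a ha.1 b hb.1)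
        (fun a ha => ha.2) fun z hz => ?_
      have hmem : ∀ w : A, orderOf w = 2 → ((w : (P : Subgroup K)) ∈ B) := fun w hw =>
        ⟨w.2, by rw [← Subgroup.coe_pow, orderOf_dvd_iff_pow_eq_one.mp hw.dvd, Subgroup.coe_one]⟩
      by_contra hcon
      push Not at hcon
      have h12 : ∀ w ∈ Subgroup.zpowers z, w ≠ 1 → w = z := by
        intro w hw hw1
        rw [← mem_powers_iff_mem_zpowers] at hw
        obtain ⟨i, rfl⟩ := hw
        obtain ⟨j, rfl | rfl⟩ := Nat.even_or_odd' i
        · exact absurd (show z ^ (2 * j) = 1 by rw [pow_mul, hz.2, one_pow]) hw1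
        · simp only
          rw [pow_succ, pow_mul, hz.2, one_pow, one_mul]
      have hne1 : ∀ w : A, orderOf w = 2 → (w : (P : Subgroup K)) ≠ 1 := fun w hw e => by
        rw [← Subgroup.orderOf_coe, e, orderOf_one] at hw
        exact absurd hw (by decide)
      exact hst (Subtype.ext ((h12 _ (hcon _ (hmem s hs)) (hne1 s hs)).trans
        (h12 _ (hcon _ (hmem t ht)) (hne1 t ht)).symm))
    obtain ⟨n, r, s, hn, hr, ⟨Fr⟩⟩ :=
      (CfsgLib.TwoGroup.isMaxClassType_of_normal_rank_one hPp hcyc hnoab).exists_maxType_frame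
    haveI : NeZero (2 ^ n) := ⟨pow_ne_zero _ two_ne_zero⟩
    have hr4 : r.val % 4 = 3 := by
      have hd : 4 ∣ 2 ^ n := by rw [show (4 : ℕ) = 2 ^ 2 from rfl]; exact pow_dvd_pow 2 hn
      have h1 : ZMod.castHom hd (ZMod 4) r = -1 := by
        rcases hr with rfl | ⟨h3, rfl⟩
        · rw [map_neg, map_one]
        · rw [map_add, map_neg, map_one, CfsgLib.TwoGroup.half, map_pow, map_ofNat,
            show n - 1 = 2 + (n - 3) by omega, pow_add, show (2 : ZMod 4) ^ 2 = 0 by decide, zero_mul,
            add_zero]
      rw [← ZMod.natCast_zmod_val r, map_natCast] at h1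
      have h2 : ((r.val : ℕ) : ZMod 4) = ((3 : ℕ) : ZMod 4) := h1.trans (by decide)
      rw [ZMod.natCast_eq_natCast_iff'] at h2
      simpa using h2
    have hord : orderOf (Fr.e 1) = 2 ^ n := by
      rw [Fr.orderOf_e, ZMod.addOrderOf_one]
    have hpow : ∀ i : ZMod (2 ^ n), Fr.e i = Fr.e 1 ^ i.val := fun i => by
      rw [← Fr.map_nsmul, mul_one, ZMod.natCast_zmod_val]
    have hsq := h.card_eq_sq hq2 hexp (c := ((Fr.e 1 : (P : Subgroup K)) : K)) (x := (Fr.y : K))
      (m := n) (r := r.val) (by rw [Subgroup.orderOf_coe, hord]) hn hr4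
      (by
        have h1 := Fr.conj_y 1
        rw [mul_one, hpow r] at h1
        have h2 : Fr.y * Fr.e 1 * Fr.y⁻¹ = Fr.e 1 ^ r.val := by rw [h1, mul_inv_cancel_right]
        exact_mod_cast congrArg Subtype.val h2)
      (by
        refine ⟨(s.val : ℤ), ?_⟩
        show _ ^ (s.val : ℤ) = _
        rw [zpow_natCast, ← Subgroup.coe_pow, ← hpow, ← Fr.y_sq]
        rfl)
      (fun π hπ => by
        obtain ⟨i, hi | hi⟩ := Fr.cover ⟨π, hπ⟩
        · exact ⟨i.val, Or.inl (by have := congrArg Subtype.val hi; rw [hpow i] at this; simpa using this)⟩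
        · exact ⟨i.val, Or.inr (by have := congrArg Subtype.val hi; rw [hpow i] at this; simpa using this)⟩)
    have hsub : Subsingleton K := subsingleton_of_sq hcop hexp hsq h.perfect (by
      rintro g ⟨l, hl, hl2, hg⟩
      haveI := Fact.mk hl
      obtain ⟨R, hR⟩ := (IsPGroup.of_card (n := 1) (by rw [Nat.card_zpowers, hg, pow_one]) :
        IsPGroup l (Subgroup.zpowers g)).exists_le_sylow
      obtain ⟨v, hv⟩ := exists_ne (0 : V)
      obtain ⟨k, hk⟩ := hcopl l hl hl2 v R
      refine ⟨k⁻¹ • v, fun e => hv ((smul_eq_zero_iff_eq k⁻¹).mp e), ?_⟩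
      have := hk g (hR (Subgroup.mem_zpowers g))
      rw [mul_assoc, mul_smul] at this
      rw [smul_smul]
      nth_rw 2 [← this]
      rw [smul_smul, inv_mul_cancel, one_smul])
    exact hns (Group.isSolvable_of_comm fun k l => Subsingleton.elim _ _)
  · -- odd primes
    have hcyc : IsCyclic (P : Subgroup K) := by
      by_contra hnc
      obtain ⟨A, hA, ⟨hAc, hAp⟩, hAcard⟩ := CfsgLib.PGroup.exists_normal_elementary_sq hp2 hPp hnc
      haveI := hA
      refine h.no_omega hqp hexp hPp A (fun a ha b hb =>
        congrArg Subtype.val (hAc.is_comm.comm ⟨a, ha⟩ ⟨b, hb⟩)) hAp fun z hz => ?_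
      by_contra hcon
      push Not at hcon
      have h1 : Nat.card A ≤ Nat.card (Subgroup.zpowers z) := Subgroup.card_le_of_le hcon
      rw [hAcard, Nat.card_zpowers] at h1
      have h2 : orderOf z ≤ p := Nat.le_of_dvd hp.out.pos (orderOf_dvd_of_pow_eq_one (hAp z hz))
      have := hp.out.two_le
      nlinarith
    obtain ⟨g, hg⟩ := (Subgroup.isCyclic_iff_exists_zpowers_eq_top (P : Subgroup K)).mp hcyc
    obtain ⟨a, ha⟩ := IsPGroup.iff_card.mp hPp
    have hgord : orderOf g = p ^ a := by rw [← Nat.card_zpowers, hg, ha]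
    have ha0 : a ≠ 0 := by
      rintro rfl
      exact hPbot (Subgroup.card_eq_one.mp (by simpa using ha))
    obtain ⟨n, hcardV, hn, hcentr⟩ := h.cyclic_bound hqp hp2 hexp hg.symm hgord ha0
    set g1 := g ^ p ^ (a - 1) with hg1
    have hg1ord : orderOf g1 = p := by
      rw [hg1, orderOf_pow_of_dvd (pow_ne_zero _ hp.out.ne_zero) (hgord ▸ pow_dvd_pow p (Nat.sub_le a 1)),
        hgord, Nat.pow_div (Nat.sub_le a 1) hp.out.pos, show a - (a - 1) = 1 by omega, pow_one]
    -- `K` is simple
    have hsimple : ∀ M : Subgroup K, M.Normal → M = ⊥ ∨ M = ⊤ := by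
      intro M hM
      by_contra hcon
      push Not at hcon
      haveI := hnormal M hM hcon.2
      haveI : Nontrivial M := (Subgroup.nontrivial_iff_ne_bot M).mpr hcon.1
      have hF : Cfsg.fittingSubgroup M ≠ ⊥ := Constrained.fitting_ne_bot
      obtain ⟨l, hl, hlb⟩ : ∃ l : ℕ, l.Prime ∧ Cfsg.pCore l M ≠ ⊥ := by
        by_contra e
        push Not at e
        apply hF
        rw [Constrained.fitting_eq_iSup_pCore]
        simp only [iSup_eq_bot]
        exact fun l hl => e l hl
      haveI := Fact.mk hl
      haveI hchar : (Cfsg.pCore l M).Characteristic := inferInstance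
      let L : Subgroup K := (Cfsg.pCore l M).map M.subtype
      haveI hLn : L.Normal := ConjAct.normal_of_characteristic_of_normal
      have hLl : IsPGroup l L := (Constrained.isPGroup_pCore (G := M)).map _
      have hLb : L ≠ ⊥ := fun e => hlb ((Subgroup.map_eq_bot_iff_of_injective _ M.subtype_injective).mp e)
      rcases eq_or_ne l p with rfl | hlp
      swap
      · exact hLb (hcore l hl hlp L hLn hLl)
      have hLP : L ≤ (P : Subgroup K) := by
        obtain ⟨R, hR⟩ := hLl.exists_le_sylow
        obtain ⟨k, hk⟩ := MulAction.exists_smul_eq K R P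
        intro x hx
        rw [← hk, Sylow.coe_subgroup_smul]
        exact ⟨k⁻¹ * x * k, hR (by simpa using hLn.conj_mem x hx k⁻¹), by simp [mul_assoc]⟩
      haveI hLc : IsCyclic L :=
        isCyclic_of_injective (Subgroup.inclusion hLP) (Subgroup.inclusion_injective hLP)
      let cm : CommGroup L := hLc.commGroup
      have hcentral : ∀ k : K, ∀ x ∈ L, Commute k x := by
        intro k x hx
        let f : K →* (ZMod (Nat.card L))ˣ :=
          (IsCyclic.mulAutMulEquiv (G := L)).toMonoidHom.comp (MulAut.conjNormal (H := L))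
        have h1 := hom_eq_one_of_perfect h.perfect f k
        have h2 : MulAut.conjNormal (H := L) k = 1 :=
          (IsCyclic.mulAutMulEquiv (G := L)).injective (h1.trans (map_one _).symm)
        have h3 := congrArg (fun φ : MulAut L => ((φ ⟨x, hx⟩ : L) : K)) h2
        simp only [MulAut.conjNormal_apply, MulAut.one_apply] at h3
        exact mul_inv_eq_iff_eq_mul.mp h3
      obtain ⟨y, hy⟩ := exists_prime_orderOf_dvd_card' (G := L) l (by
        obtain ⟨j, hj⟩ := IsPGroup.iff_card.mp hLl
        rw [hj]
        refine dvd_pow_self l fun e => hLb (Subgroup.card_eq_one.mp ?_)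
        rw [hj, e, pow_zero])
      have hg1L : g1 ∈ L := by
        obtain ⟨i, hi⟩ : ∃ i : ℕ, g ^ i = (y : K) := by
          have := hLP y.2
          rw [← hg, ← mem_powers_iff_mem_zpowers] at this
          exact this
        have hdvd : l ^ (a - 1) ∣ i := by
          have h1 : g ^ (i * l) = 1 := by
            rw [pow_mul, hi, ← hy, ← Subgroup.coe_pow, pow_orderOf_eq_one, Subgroup.coe_one]
          have h2 := orderOf_dvd_of_pow_eq_one h1
          have e : l ^ a = l ^ (a - 1) * l := by rw [← pow_succ, show a - 1 + 1 = a by omega]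
          rw [hgord, e] at h2
          exact Nat.dvd_of_mul_dvd_mul_right hl.pos h2
        obtain ⟨t, rfl⟩ := hdvd
        have h1 : Subgroup.zpowers (y : K) ≤ Subgroup.zpowers g1 := by
          rw [Subgroup.zpowers_le, ← hi, hg1, pow_mul]
          exact Subgroup.npow_mem_zpowers _ t
        have h2 : Subgroup.zpowers (y : K) = Subgroup.zpowers g1 := Subgroup.eq_of_le_of_card_ge h1 (by
          rw [Nat.card_zpowers, Nat.card_zpowers, hg1ord, Subgroup.orderOf_coe, hy])
        have h3 : g1 ∈ Subgroup.zpowers (y : K) := h2 ▸ Subgroup.mem_zpowers g1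
        exact (Subgroup.zpowers_le.mpr y.2) h3
      exact hns (Group.isSolvable_of_comm fun k k' => hcentr k k' (hcentral k g1 hg1L) (hcentral k' g1 hg1L))
    -- the orbit of a vector
    obtain ⟨v₀, hv₀⟩ := exists_ne (0 : V)
    have hfree : ∀ π ∈ (P : Subgroup K), π • v₀ = v₀ → π = 1 := by
      intro π hπ hfix
      let U : AddSubgroup V :=
        { carrier := {w | π • w = w}
          zero_mem' := smul_zero _
          add_mem' := fun {x y} hx hy => by
            simp only [Set.mem_ofPred_eq] at hx hy ⊢
            rw [smul_add, hx, hy]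
          neg_mem' := fun {x} hx => by
            simp only [Set.mem_ofPred_eq] at hx ⊢
            rw [smul_neg, hx] }
      rcases h.irreducible U (fun σ hσ w hw => by
        show π • σ • w = σ • w
        have hc : π * σ = σ * π := congrArg Subtype.val
          ((hcyc.isMulCommutative).is_comm.comm (⟨π, hπ⟩ : (P : Subgroup K)) ⟨σ, hσ⟩)
        rw [smul_smul, hc, mul_smul, show π • w = w from hw]) with hU | hU
      · exact absurd (AddSubgroup.mem_bot.mp (hU ▸ (show v₀ ∈ U from hfix))) hv₀
      · exact FaithfulSMul.eq_of_smul_eq_smul (fun w : V => by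
          rw [one_smul]; exact (show w ∈ U by rw [hU]; trivial))
    let Ω := MulAction.orbit K v₀
    have hΩP : ∀ o : Ω, ∃ π ∈ (P : Subgroup K), π • v₀ = (o : V) := by
      rintro ⟨_, k, rfl⟩
      exact h.orbit k v₀
    have hΩcard : Nat.card Ω = p ^ a := by
      rw [← ha]
      refine (Nat.card_eq_of_bijective (fun π : (P : Subgroup K) => (⟨(π : K) • v₀, π.1, rfl⟩ : Ω)) ⟨?_, ?_⟩).symm
      · intro x y hxy
        have h1 : ((y : K)⁻¹ * (x : K)) • v₀ = v₀ := by
          rw [mul_smul, show (x : K) • v₀ = (y : K) • v₀ from congrArg Subtype.val hxy, smul_smul,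
            inv_mul_cancel, one_smul]
        exact Subtype.ext (inv_mul_eq_one.mp (hfree _ (mul_mem (inv_mem y.2) x.2) h1)).symm
      · intro o
        obtain ⟨π, hπ, e⟩ := hΩP o
        exact ⟨⟨π, hπ⟩, Subtype.ext e⟩
    haveI : Fintype Ω := Fintype.ofFinite Ω
    let φ : K →* Equiv.Perm Ω := MulAction.toPermHom K Ω
    let o₀ : Ω := ⟨v₀, MulAction.mem_orbit_self v₀⟩
    have hφ : φ.ker = ⊥ := by
      rcases hsimple φ.ker inferInstance with e | e
      · exact e
      · exfalso
        have h1 : Nat.card Ω = 1 := by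
          rw [Nat.card_eq_one_iff_unique]
          refine ⟨⟨fun x y => ?_⟩, ⟨o₀⟩⟩
          have : ∀ o : Ω, o = o₀ := by
            rintro ⟨_, k, rfl⟩
            have := congrArg (fun σ : Equiv.Perm Ω => ((σ o₀ : Ω) : V))
              (show φ k = 1 from (show k ∈ φ.ker by rw [e]; trivial))
            exact Subtype.ext this
          rw [this x, this y]
        rw [hΩcard] at h1
        exact ha0 ((Nat.pow_eq_one.mp h1).resolve_left hp.out.ne_one)
    let G := φ.range
    have htr : MulAction.IsPretransitive G Ω := by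
      constructor
      rintro ⟨x, hx⟩ ⟨y, hy⟩
      obtain ⟨k, hk⟩ := MulAction.mem_orbit_iff.mp hx
      obtain ⟨k', hk'⟩ := MulAction.mem_orbit_iff.mp hy
      refine ⟨⟨φ (k' * k⁻¹), k' * k⁻¹, rfl⟩, Subtype.ext ?_⟩
      show (k' * k⁻¹) • x = y
      rw [← hk, smul_smul, inv_mul_cancel_right, hk']
    let eG : K ≃* G := MonoidHom.ofInjective ((MonoidHom.ker_eq_bot_iff φ).mp hφ)
    have hnsG : ¬ Group.IsSolvable G := fun e => hns
      (solvable_of_solvable_injective (f := eG.toMonoidHom) eG.injective)
    have h2t : MulAction.IsMultiplyPretransitive G Ω 2 := by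
      rcases eq_or_ne a 1 with rfl | ha1
      · exact (Cfsg.Agent.S0675.result (by rw [← Nat.card_eq_fintype_card, hΩcard, pow_one]; exact hp.out)
          G).resolve_left hnsG
      · by_contra h2
        have h1 := (Cfsg.Agent.S3972.result p a hp.out (by omega)
          (by rw [← Nat.card_eq_fintype_card, hΩcard]) G htr h2 (eG g)
          (by rw [MulEquiv.orderOf_eq, hgord])).2
        apply h1
        have htop : Subgroup.normalClosure ({(eG g) ^ p ^ (a - 1)} : Set G) = ⊤ := by
          rcases hsimple ((Subgroup.normalClosure ({(eG g) ^ p ^ (a - 1)} : Set G)).comap eG.toMonoidHom)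
            inferInstance with e | e
          · exfalso
            have : g1 ∈ (Subgroup.normalClosure ({(eG g) ^ p ^ (a - 1)} : Set G)).comap eG.toMonoidHom := by
              rw [Subgroup.mem_comap, hg1, map_pow]
              exact Subgroup.subset_normalClosure rfl
            rw [e, Subgroup.mem_bot] at this
            rw [this, orderOf_one] at hg1ord
            exact hp.out.ne_one hg1ord.symm
          · rw [eq_top_iff]
            intro x _
            obtain ⟨k, rfl⟩ := eG.surjective x
            exact (show k ∈ _ by rw [e]; trivial :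
              k ∈ (Subgroup.normalClosure ({(eG g) ^ p ^ (a - 1)} : Set G)).comap eG.toMonoidHom)
        rw [htop]
        constructor
        intro x y
        obtain ⟨γ, hγ⟩ := htr.exists_smul_eq x y
        exact ⟨⟨γ, trivial⟩, hγ⟩
    have h2K : ∀ {x y x' y' : Ω}, x ≠ y → x' ≠ y' → ∃ k : K, k • x = x' ∧ k • y = y' := by
      intro x y x' y' hxy hxy'
      obtain ⟨⟨γ, k, rfl⟩, hx, hy⟩ := (MulAction.is_two_pretransitive_iff.mp h2t) hxy hxy'
      exact ⟨k, hx, hy⟩
    -- linear independence of the orbit up to its sum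
    have hsum : ∑ o : Ω, (o : V) = 0 := by
      let U : AddSubgroup V :=
        { carrier := {w | ∀ π ∈ (P : Subgroup K), π • w = w}
          zero_mem' := fun π _ => smul_zero _
          add_mem' := fun {x y} hx hy π hπ => by rw [smul_add, hx π hπ, hy π hπ]
          neg_mem' := fun {x} hx π hπ => by rw [smul_neg, hx π hπ] }
      rcases h.irreducible U (fun σ hσ w hw π hπ => by
        rw [hw σ hσ, hw π hπ]) with hU | hU
      · refine AddSubgroup.mem_bot.mp (hU ▸ (show _ ∈ U from fun π hπ => ?_))
        rw [Finset.smul_sum]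
        exact Fintype.sum_equiv (MulAction.toPerm π) _ _ fun o => rfl
      · exfalso
        refine hPbot (eq_bot_iff.mpr fun π hπ => Subgroup.mem_bot.mpr ?_)
        exact hfree π hπ ((show v₀ ∈ U by rw [hU]; trivial) π hπ)
    obtain ⟨N, hN⟩ : ∃ N, p ^ a = N + 1 := ⟨p ^ a - 1, (Nat.succ_pred_eq_of_pos (pow_pos hp.out.pos a)).symm⟩
    have hind : ∀ c : Ω → ZMod q, ∑ o, c o = 0 → ∑ o, (c o).val • (o : V) = 0 → ∀ o, c o = 0 := by
      intro c hc hrel o
      have inst : Module (ZMod q) V := AddCommGroup.zmodModule hexp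
      have hval : ∀ (t : ZMod q) (w : V), t.val • w = t • w := fun t w => by
        conv_rhs => rw [← ZMod.natCast_zmod_val t, Nat.cast_smul_eq_nsmul]
      simp only [hval] at hrel
      haveI : Fintype (MulAction.stabilizer K o) := Fintype.ofFinite _
      have hlin : ∀ (k : K) (t : ZMod q) (w : V), k • t • w = t • k • w := fun k t w =>
        ZMod.map_smul (DistribMulAction.toAddMonoidHom V k) t w
      set A : Ω → V := fun o' => ∑ s : MulAction.stabilizer K o, (s : K) • (o' : V) with hA
      have hAo : A o = (Fintype.card (MulAction.stabilizer K o) : ZMod q) • (o : V) := by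
        simp only [hA]
        refine (Finset.sum_congr rfl (g := fun _ => (o : V)) fun s _ => ?_).trans ?_
        · exact congrArg Subtype.val (s.2 : (s : K) • o = o)
        · rw [Finset.sum_const, Finset.card_univ, Nat.cast_smul_eq_nsmul]
      have hAconst : ∀ x y : Ω, x ≠ o → y ≠ o → A x = A y := by
        intro x y hx hy
        obtain ⟨k, hko, hkx⟩ := h2K hx.symm hy.symm
        simp only [hA]
        refine Fintype.sum_equiv (Equiv.mulRight (⟨k, hko⟩⁻¹ : MulAction.stabilizer K o)) _ _ fun s => ?_
        show _ = ((s * (⟨k, hko⟩ : MulAction.stabilizer K o)⁻¹ : MulAction.stabilizer K o) : K) • _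
        rw [Subgroup.coe_mul, Subgroup.coe_inv, mul_smul,
          show (y : V) = k • (x : V) from (congrArg Subtype.val hkx).symm, smul_smul k⁻¹, inv_mul_cancel,
          one_smul]
      have hAsum : ∑ x, A x = 0 := by
        simp only [hA]
        rw [Finset.sum_comm]
        exact Finset.sum_eq_zero fun s _ => by rw [← Finset.smul_sum, hsum, smul_zero]
      have h1 : ∑ x, c x • A x = 0 := by
        simp only [hA, Finset.smul_sum]
        rw [Finset.sum_comm]
        exact Finset.sum_eq_zero fun s _ => by simp only [← hlin]; rw [← Finset.smul_sum, hrel, smul_zero]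
      obtain ⟨x₁, hx₁⟩ : ∃ x : Ω, x ≠ o := by
        haveI : Nontrivial Ω := Finite.one_lt_card_iff_nontrivial.mp (by
          rw [hΩcard]; exact Nat.one_lt_pow ha0 hp.out.one_lt)
        exact exists_ne o
      rw [Fintype.sum_eq_add_sum_compl o] at h1 hAsum hc
      rw [Finset.sum_congr rfl (fun x hx => by
        rw [hAconst x x₁ (by simpa using hx) hx₁])] at hAsum h1
      rw [Finset.sum_const, Finset.card_compl, Finset.card_singleton, ← Nat.card_eq_fintype_card, hΩcard,
        hN, Nat.add_sub_cancel, ← Nat.cast_smul_eq_nsmul (ZMod q)] at hAsum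
      rw [← Finset.sum_smul, show ∑ x ∈ ({o} : Finset Ω)ᶜ, c x = -c o from eq_neg_of_add_eq_zero_right hc,
        hAo] at h1
      rw [hAo] at hAsum
      set C := (Fintype.card (MulAction.stabilizer K o) : ZMod q)
      have h2 : (c o * C * (N + 1 : ZMod q)) • (o : V) = 0 := by
        have e3 : (c o * C * (N + 1 : ZMod q)) • (o : V) =
            (N : ZMod q) • (c o • C • (o : V) + (-c o) • A x₁)
              + c o • (C • (o : V) + (N : ZMod q) • A x₁) := by
          module
        rw [e3, h1, hAsum, smul_zero, smul_zero, add_zero]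
      have ho : (o : V) ≠ 0 := by
        obtain ⟨k, hk⟩ := MulAction.mem_orbit_iff.mp o.2
        rw [← hk]
        exact fun e => hv₀ ((smul_eq_zero_iff_eq k).mp e)
      rcases smul_eq_zero.mp h2 with h3 | h3
      swap
      · exact absurd h3 ho
      rcases mul_eq_zero.mp h3 with h4 | h4
      · rcases mul_eq_zero.mp h4 with h5 | h5
        · exact h5
        · exfalso
          rw [ZMod.natCast_eq_zero_iff, ← Nat.card_eq_fintype_card] at h5
          exact hq.out.coprime_iff_not_dvd.mp hcop.symm (h5.trans (Subgroup.card_subgroup_dvd_card _))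
      · exfalso
        rw [← Nat.cast_one, ← Nat.cast_add, ← hN, ZMod.natCast_eq_zero_iff] at h4
        exact hqp ((Nat.prime_dvd_prime_iff_eq hq.out hp.out).mp (hq.out.dvd_of_dvd_pow h4))
    have hNn : N ≤ n := by
      have inst : Module (ZMod q) V := AddCommGroup.zmodModule hexp
      let ι := {x : Ω // x ≠ o₀}
      letI : Fintype ι := Subtype.fintype _
      have hli : LinearIndependent (ZMod q) (fun x : ι => ((x.1 : V) - (o₀ : V))) := by
        rw [Fintype.linearIndependent_iff]
        intro f hf x
        set g' : Ω → ZMod q := fun o => if hh : o = o₀ then -∑ y, f y else f ⟨o, hh⟩ with hg'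
        have e0 : g' o₀ = -∑ y, f y := by simp [hg']
        have e1 : ∀ y : ι, g' y.1 = f y := fun y => by simp [hg', y.2]
        have h1 := hind g' ?_ ?_ x.1
        · rwa [e1] at h1
        · rw [Fintype.sum_eq_add_sum_subtype_ne _ o₀, e0]
          simp only [e1]
          exact neg_add_cancel _
        · rw [Fintype.sum_eq_add_sum_subtype_ne _ o₀, e0]
          simp only [e1, ← Nat.cast_smul_eq_nsmul (ZMod q), ZMod.natCast_zmod_val]
          rw [← hf]
          simp only [smul_sub, Finset.sum_sub_distrib, ← Finset.sum_smul, neg_smul]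
          abel
      have h1 := hli.fintype_card_le_finrank
      have h2 : Module.finrank (ZMod q) V = n := by
        have := Module.natCard_eq_pow_finrank (K := ZMod q) (V := V)
        rw [hcardV, Nat.card_zmod] at this
        exact (Nat.pow_right_injective hq.out.two_le this).symm
      have h3 : Fintype.card ι = N := by
        rw [Fintype.card_subtype_compl, Fintype.card_subtype_eq, ← Nat.card_eq_fintype_card, hΩcard, hN,
          Nat.add_sub_cancel]
      omega
    have ha1 : a = 1 := by
      by_contra hne
      have h1 : p ^ 2 ≤ p ^ a := Nat.pow_le_pow_right hp.out.pos (by omega)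
      rw [pow_two] at h1
      have := hp.out.two_le
      nlinarith [Nat.sub_add_cancel hp.out.one_le]
    have hΩp : Nat.card Ω = p := by rw [hΩcard, ha1, pow_one]
    obtain ⟨o₁, ho₁⟩ : ∃ o : Ω, o ≠ o₀ := by
      haveI : Nontrivial Ω := Finite.one_lt_card_iff_nontrivial.mp (by rw [hΩp]; exact hp.out.one_lt)
      exact exists_ne o₀
    have hq2 : q ≠ 2 := by
      rintro rfl
      obtain ⟨k, hk0, hk1⟩ := h2K ho₁.symm ho₁
      have h1 : k ^ 2 • o₀ = o₀ := by rw [pow_two, mul_smul, hk0, hk1]
      have h2 : k • o₀ = o₀ := by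
        obtain ⟨t, ht⟩ : Odd (orderOf k) := by
          rw [← Nat.not_even_iff_odd, even_iff_two_dvd]
          exact fun e => hq.out.coprime_iff_not_dvd.mp hcop.symm (e.trans (orderOf_dvd_natCard k))
        have hk : k = (k ^ 2) ^ (t + 1) := by
          rw [← pow_mul, show 2 * (t + 1) = orderOf k + 1 by omega, pow_succ, pow_orderOf_eq_one, one_mul]
        rw [hk]
        generalize t + 1 = i
        induction i with
        | zero => simp
        | succ i ih => rw [pow_succ, mul_smul, h1, ih]
      exact ho₁ (hk0.symm.trans h2)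
    let D : {x : Ω × Ω // x.1 ≠ x.2} → MulAction.orbit (P : Subgroup K) ((o₀ : V) - (o₁ : V)) :=
      fun x => ⟨(x.1.1 : V) - (x.1.2 : V), by
        obtain ⟨k, hk0, hk1⟩ := h2K ho₁.symm x.2
        obtain ⟨π, hπ, e⟩ := h.orbit k ((o₀ : V) - (o₁ : V))
        refine ⟨⟨π, hπ⟩, ?_⟩
        show π • ((o₀ : V) - (o₁ : V)) = _
        rw [e, smul_sub, ← hk0, ← hk1]
        rfl⟩
    have hD : Function.Injective D := by
      rintro ⟨⟨x, y⟩, hxy⟩ ⟨⟨x', y'⟩, hxy'⟩ e
      have e' : (x : V) - y = (x' : V) - y' := congrArg Subtype.val e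
      have inst : Module (ZMod q) V := AddCommGroup.zmodModule hexp
      have h1 : ∀ o : Ω, (if o = x then (1 : ZMod q) else 0) - (if o = y then 1 else 0)
          - (if o = x' then 1 else 0) + (if o = y' then 1 else 0) = 0 := by
        refine hind _ ?_ ?_
        · simp [Finset.sum_add_distrib, Finset.sum_sub_distrib]
        · simp only [← Nat.cast_smul_eq_nsmul (ZMod q), ZMod.natCast_zmod_val, add_smul, sub_smul,
            ite_smul, one_smul, zero_smul, Finset.sum_add_distrib, Finset.sum_sub_distrib,
            Finset.sum_ite_eq', Finset.mem_univ, if_true]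
          rw [e']
          abel
      have h2z : (1 : ZMod q) + 1 ≠ 0 := by
        intro e2
        rw [← Nat.cast_one, ← Nat.cast_add, ZMod.natCast_eq_zero_iff] at e2
        exact hq2 ((Nat.prime_dvd_prime_iff_eq hq.out Nat.prime_two).mp e2)
      have hxx' : x = x' := by
        by_contra hne
        have := h1 x
        rw [if_pos rfl, if_neg hxy, if_neg hne] at this
        split_ifs at this
        · simp at this; exact h2z this
        · simp at this
      have hyy' : y = y' := by
        by_contra hne
        have := h1 y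
        rw [if_neg (Ne.symm hxy), if_pos rfl, if_neg hne] at this
        subst hxx'
        rw [if_neg (Ne.symm hxy)] at this
        simp at this
      subst hxx' hyy'
      rfl
    have h3 := Nat.card_le_card_of_injective D hD
    have h4 : Nat.card (MulAction.orbit (P : Subgroup K) ((o₀ : V) - (o₁ : V))) ≤ p := by
      rw [Nat.card_coe_set_eq, ← MulAction.index_stabilizer]
      refine (Nat.le_of_dvd Nat.card_pos (Subgroup.index_dvd_card _)).trans ?_
      rw [ha, ha1, pow_one]
    have h5 : Nat.card {x : Ω × Ω // x.1 ≠ x.2} = p * (p - 1) := by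
      rw [Nat.card_eq_fintype_card, Fintype.card_subtype_compl, Fintype.card_prod,
        ← Nat.card_eq_fintype_card, hΩp]
      have : Fintype.card {x : Ω × Ω // x.1 = x.2} = p := by
        rw [← hΩp, Nat.card_eq_fintype_card]
        exact Fintype.card_congr ⟨fun x => x.1.1, fun o => ⟨(o, o), rfl⟩,
          fun ⟨⟨x, y⟩, (e : x = y)⟩ => by subst e; rfl, fun o => rfl⟩
      rw [this, Nat.mul_sub_one]
    rw [h5] at h3
    have h6 : p * (p - 1) ≤ p * 1 := (h3.trans h4).trans_eq (mul_one p).symm
    have := Nat.le_of_mul_le_mul_left h6 hp.out.pos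
    have := hp.out.two_le
    omega

end Core

theorem isSolvable_aux {p q : ℕ} [hp : Fact p.Prime] [hq : Fact q.Prime] :
    ∀ (m : ℕ) (K : Type u) (V : Type v) [Group K] [AddCommGroup V] [DistribMulAction K V]
      [Finite K] [Finite V] [FaithfulSMul K V], Nat.card K + Nat.card V = m →
      (∀ v : V, q • v = 0) → (Nat.card K).Coprime q →
      (∀ v : V, ∃ a, (MulAction.stabilizer K v).index = p ^ a) → Group.IsSolvable K := by
  intro m
  induction m using Nat.strong_induction_on with
  | _ m ih =>
  intro K V _ _ _ _ _ _ hm hexp hcop horb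
  classical
  rcases subsingleton_or_nontrivial V with hV | hV
  · exact Group.isSolvable_of_comm fun k l => FaithfulSMul.eq_of_smul_eq_smul
      (fun w : V => Subsingleton.elim _ _)
  by_cases hred : ∃ W : AddSubgroup V, (∀ (k : K), ∀ w ∈ W, k • w ∈ W) ∧ W ≠ ⊥ ∧ W ≠ ⊤
  · obtain ⟨W, hW, hW0, hW1⟩ := hred
    letI act1 : DistribMulAction K W :=
      { smul := fun k w => ⟨k • (w : V), hW k w w.2⟩
        one_smul := fun w => Subtype.ext (one_smul K (w : V))
        mul_smul := fun k l w => Subtype.ext (mul_smul k l (w : V))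
        smul_zero := fun k => Subtype.ext (smul_zero k)
        smul_add := fun k w w' => Subtype.ext (smul_add k (w : V) w') }
    let sm : K → V ⧸ W → V ⧸ W := fun k =>
      QuotientAddGroup.map W W (DistribMulAction.toAddMonoidHom V k) (fun w hw => hW k w hw)
    letI act2 : DistribMulAction K (V ⧸ W) :=
      { smul := sm
        one_smul := fun w => by
          induction w using QuotientAddGroup.induction_on with
          | H x => exact congrArg QuotientAddGroup.mk (one_smul K x)
        mul_smul := fun k l w => by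
          induction w using QuotientAddGroup.induction_on with
          | H x => exact congrArg QuotientAddGroup.mk (mul_smul k l x)
        smul_zero := fun k => map_zero _
        smul_add := fun k w w' => map_add _ _ _ }
    haveI : Finite (V ⧸ W) := Finite.of_surjective _ (QuotientAddGroup.mk'_surjective W)
    have hsplit : Nat.card V = Nat.card (V ⧸ W) * Nat.card W :=
      AddSubgroup.card_eq_card_quotient_mul_card_addSubgroup W
    have hWlt : Nat.card W < Nat.card V := by
      refine lt_of_le_of_ne (Nat.card_le_card_of_injective _ Subtype.val_injective) fun e => hW1 ?_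
      exact AddSubgroup.eq_top_of_card_eq W e
    have hQlt : Nat.card (V ⧸ W) < Nat.card V := by
      have h1 : 1 < Nat.card W := by
        haveI : Nontrivial W := (AddSubgroup.nontrivial_iff_ne_bot W).mpr hW0
        exact Finite.one_lt_card
      have h2 : 0 < Nat.card (V ⧸ W) := Nat.card_pos
      rw [hsplit]
      exact lt_mul_of_one_lt_right h2 h1
    -- the faithful quotient of the action on `U`
    have key : ∀ (U : Type v) [AddCommGroup U] [DistribMulAction K U] [Finite U],
        Nat.card U < Nat.card V → (∀ u : U, q • u = 0) →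
        (∀ u : U, ∃ a, (MulAction.stabilizer K u).index = p ^ a) →
        Group.IsSolvable (K ⧸ (MulAction.toPermHom K U).ker) := by
      intro U _ _ _ hU hUexp hUorb
      set N := (MulAction.toPermHom K U).ker with hN
      have hker : ∀ k ∈ N, ∀ u : U, k • u = u := fun k hk u =>
        congrArg (fun σ : Equiv.Perm U => σ u) (MonoidHom.mem_ker.mp hk)
      let sm : K ⧸ N → U → U := fun c u => Quotient.liftOn' c (fun k => k • u) fun k l hkl => by
        have h1 := hker _ (QuotientGroup.leftRel_apply.mp hkl) u
        show k • u = l • u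
        conv_lhs => rw [← h1]
        rw [smul_smul, mul_inv_cancel_left]
      letI act : DistribMulAction (K ⧸ N) U :=
        { smul := sm
          one_smul := fun u => one_smul K u
          mul_smul := fun c d u => by
            induction c using QuotientGroup.induction_on with
            | H k => induction d using QuotientGroup.induction_on with
              | H l => exact mul_smul k l u
          smul_zero := fun c => by
            induction c using QuotientGroup.induction_on with
            | H k => exact smul_zero k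
          smul_add := fun c u u' => by
            induction c using QuotientGroup.induction_on with
            | H k => exact smul_add k u u' }
      haveI : FaithfulSMul (K ⧸ N) U := ⟨fun {c d} h => by
        induction c using QuotientGroup.induction_on with
        | H k => induction d using QuotientGroup.induction_on with
          | H l =>
            rw [QuotientGroup.eq, hN, MonoidHom.mem_ker]
            ext u
            show (k⁻¹ * l) • u = u
            rw [mul_smul, ← show k • u = l • u from h u, smul_smul, inv_mul_cancel, one_smul]⟩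
      have hle : Nat.card (K ⧸ N) ≤ Nat.card K :=
        Nat.card_le_card_of_surjective _ (QuotientGroup.mk'_surjective N)
      refine ih _ (by omega) (K ⧸ N) U rfl hUexp
        (hcop.coprime_dvd_left (Subgroup.card_quotient_dvd_card N)) fun u => ?_
      obtain ⟨a, ha⟩ := hUorb u
      have e : (MulAction.stabilizer (K ⧸ N) u).comap (QuotientGroup.mk' N) = MulAction.stabilizer K u := by
        ext k; rfl
      exact ⟨a, by rw [← ha, ← e, Subgroup.index_comap_of_surjective _ (QuotientGroup.mk'_surjective N)]⟩
    haveI s1 := key W hWlt (fun w => Subtype.ext (hexp w)) fun w => by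
      obtain ⟨a, ha⟩ := horb (w : V)
      have e : MulAction.stabilizer K w = MulAction.stabilizer K (w : V) := by
        ext k
        exact ⟨fun e => congrArg Subtype.val e, fun e => Subtype.ext e⟩
      exact ⟨a, by rw [e, ha]⟩
    haveI s2 := key (V ⧸ W) hQlt (fun w => by
      induction w using QuotientAddGroup.induction_on with
      | H x => rw [← QuotientAddGroup.mk_nsmul, hexp, QuotientAddGroup.mk_zero]) fun w => by
      induction w using QuotientAddGroup.induction_on with
      | H x =>
      obtain ⟨a, ha⟩ := horb x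
      have e : MulAction.stabilizer K x ≤ MulAction.stabilizer K (QuotientAddGroup.mk x : V ⧸ W) :=
        fun k hk => congrArg QuotientAddGroup.mk (show k • x = x from hk)
      have h1 := Subgroup.index_dvd_of_le e
      rw [ha] at h1
      obtain ⟨b, -, hb⟩ := (Nat.dvd_prime_pow hp.out).mp h1
      exact ⟨b, hb⟩
    haveI : Group.IsSolvable ((K ⧸ (MulAction.toPermHom K W).ker) ×
        (K ⧸ (MulAction.toPermHom K (V ⧸ W)).ker)) :=
      @Group.isSolvable_of_ker_le_range _ _ _ _ _ _ (MonoidHom.inl _ _) (MonoidHom.snd _ _)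
        (fun x hx => ⟨x.1, Prod.ext rfl hx.symm⟩) s1 s2
    refine Group.isSolvable_of_isSolvable_injective
      (f := (QuotientGroup.mk' (MulAction.toPermHom K W).ker).prod
        (QuotientGroup.mk' (MulAction.toPermHom K (V ⧸ W)).ker)) ?_
    rw [← MonoidHom.ker_eq_bot_iff, eq_bot_iff]
    intro k hk
    rw [MonoidHom.mem_ker, MonoidHom.prod_apply, Prod.mk_eq_one] at hk
    have hk1 := (QuotientGroup.eq_one_iff k).mp hk.1
    have hk2 := (QuotientGroup.eq_one_iff k).mp hk.2
    have h1 : ∀ w ∈ W, k • w = w := fun w hw =>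
      congrArg (fun σ : Equiv.Perm W => ((σ ⟨w, hw⟩ : W) : V)) (MonoidHom.mem_ker.mp hk1)
    have h2 : ∀ x : V, k • x - x ∈ W := fun x => by
      rw [← QuotientAddGroup.eq_iff_sub_mem]
      exact congrArg (fun σ : Equiv.Perm (V ⧸ W) => σ (QuotientAddGroup.mk x))
        (MonoidHom.mem_ker.mp hk2)
    have h3 : ∀ (x : V) (i : ℕ), k ^ i • x = x + i • (k • x - x) := by
      intro x i
      induction i with
      | zero => simp
      | succ i ihi =>
        rw [pow_succ', mul_smul, ihi, smul_add, h1 _ (W.nsmul_mem (h2 x) i), succ_nsmul]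
        abel
    have hkq : k ^ q = 1 := FaithfulSMul.eq_of_smul_eq_smul (fun x : V => by
      rw [h3, hexp, add_zero, one_smul])
    rw [Subgroup.mem_bot, ← orderOf_eq_one_iff]
    exact Nat.eq_one_of_dvd_coprimes hcop (orderOf_dvd_natCard k) (orderOf_dvd_of_pow_eq_one hkq)
  push Not at hred
  by_contra hns
  have hnormal : ∀ M : Subgroup K, M.Normal → M ≠ ⊤ → Group.IsSolvable M := by
    intro M hM hMt
    haveI := hM
    have hlt : Nat.card M < Nat.card K := by
      refine lt_of_le_of_ne (Nat.card_le_card_of_injective _ Subtype.val_injective) fun e => hMt ?_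
      exact Subgroup.eq_top_of_card_eq M e
    refine ih _ (by omega) M V rfl hexp (hcop.coprime_dvd_left (Subgroup.card_subgroup_dvd_card M))
      fun v => ?_
    obtain ⟨a, ha⟩ := horb v
    have e : MulAction.stabilizer M v = (MulAction.stabilizer K v).subgroupOf M := by
      ext k; rfl
    have hdvd : (MulAction.stabilizer M v).index ∣ p ^ a := by
      rw [e, ← ha]
      show (MulAction.stabilizer K v).relIndex M ∣ _
      obtain ⟨t, ht⟩ := Subgroup.relIndex_dvd_index_of_normal M (MulAction.stabilizer K v)
      refine ⟨t, ?_⟩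
      have h1 := Subgroup.relIndex_mul_index (inf_le_left : MulAction.stabilizer K v ⊓ M ≤ MulAction.stabilizer K v)
      have h2 := Subgroup.relIndex_mul_index (inf_le_right : MulAction.stabilizer K v ⊓ M ≤ M)
      rw [Subgroup.inf_relIndex_left] at h1
      rw [Subgroup.inf_relIndex_right, ht, ← h1] at h2
      have hpos : 0 < M.relIndex (MulAction.stabilizer K v) := Nat.pos_of_ne_zero fun e => by
        rw [e, zero_mul] at ht
        exact Subgroup.index_ne_zero_of_finite ht
      refine (Nat.eq_of_mul_eq_mul_left hpos ?_).symm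
      rw [← h2]
      ring
    obtain ⟨b, -, hb⟩ := (Nat.dvd_prime_pow hp.out).mp hdvd
    exact ⟨b, hb⟩
  have hperf : commutator K = ⊤ := by
    by_contra hne
    haveI := hnormal _ inferInstance hne
    haveI : Group.IsSolvable (Abelianization K) := Group.isSolvable_of_comm fun a b => mul_comm a b
    exact hns (solvable_of_ker_le_range (commutator K).subtype Abelianization.of
      (by rw [Abelianization.ker_of, Subgroup.range_subtype]))
  let P : Sylow p K := Classical.arbitrary _
  have horbit : ∀ (k : K) (v : V), ∃ π ∈ (P : Subgroup K), π • v = k • v := by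
    intro k v
    obtain ⟨a, ha⟩ := horb v
    have hc : (P : Subgroup K).index.Coprime (MulAction.stabilizer K v).index := by
      rw [ha]
      exact Nat.Coprime.pow_right a
        (Nat.Coprime.symm ((Nat.Prime.coprime_iff_not_dvd hp.out).mpr P.not_dvd_index))
    obtain ⟨π, hπ, s, hs, rfl⟩ := Product.exists_mul_of_coprime_index hc k
    exact ⟨π, hπ, by rw [mul_smul, show s • v = v from hs]⟩
  refine Irred.false_of_irreducible hexp hcop horb P ⟨hperf, horbit, fun W hW => ?_⟩ hnormal hns
  by_contra hcon
  push Not at hcon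
  exact hcon.2 (hred W (fun k w hw => by
    obtain ⟨π, hπ, e⟩ := horbit k w
    rw [← e]
    exact hW π hπ w hw) hcon.1)

/-- A group acting faithfully on a finite elementary abelian `q`-group, of order prime to `q`,
with all orbits of `p`-power length, is solvable. -/
theorem isSolvable_of_orbit_pPower {K : Type u} {V : Type v} [Group K] [AddCommGroup V]
    [DistribMulAction K V] [Finite K] [Finite V] [FaithfulSMul K V] {p q : ℕ} [Fact p.Prime]
    [Fact q.Prime] (hexp : ∀ v : V, q • v = 0) (hcop : (Nat.card K).Coprime q)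
    (horb : ∀ v : V, ∃ a, (MulAction.stabilizer K v).index = p ^ a) : Group.IsSolvable K :=
  isSolvable_aux (p := p) (q := q) _ K V rfl hexp hcop horb

end CfsgLib.PPowerOrbits
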